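import Cfsg.Agent.Lib.Zsigmondy.Basic
import Cfsg.Agent.Lib.Zsigmondy.Large

/-!
# The arithmetic behind class numbers of transitive linear groups

If every primitive prime divisor of `p ^ n - 1` is `n + 1` or `2 * n + 1`, the latter at most
once, then the power of `n + 1` is large.
-/

set_option autoImplicit false

namespace CfsgLib.CoprimeTransitive

open Polynomial CfsgLib.Zsigmondy

/-- A test passed by all primes. -/
def maybePrime (m : ℕ) : Bool := (List.range m).all fun d => d < 2 || m % d != 0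

theorem maybePrime_of_prime {m : ℕ} (h : m.Prime) : maybePrime m = true := by
  rw [maybePrime, List.all_eq_true]
  intro d hd
  rw [List.mem_range] at hd
  by_cases h2 : d < 2
  · simp [h2]
  · have : ¬ d ∣ m := fun hdvd => by
      rcases h.eq_one_or_self_of_dvd d hdvd with h' | h' <;> omega
    simp [h2, Nat.dvd_iff_mod_eq_zero] at this ⊢
    exact this

/-- The possible part of `2 * n + 1`. -/
def extraPart (n : ℕ) : ℕ := if maybePrime (2 * n + 1) then 2 * n + 1 else 1

theorem extraPart_le (n : ℕ) : extraPart n ≤ 2 * n + 1 := by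
  rw [extraPart]; split <;> omega

/-- The possible part of `n + 1`. -/
def succPart (n : ℕ) : ℕ := if maybePrime (n + 1) then n + 1 else 1

theorem small_table : ∀ n < 201, 5 ≤ n → n ≠ 6 →
    n * extraPart n * succPart n < 6 ^ n.totient := by
  decide +kernel

theorem four_table : ∀ n < 33, maybePrime (n + 1) → n.totient = 4 → 4 < n →
    maybePrime (2 * n + 1) = false := by
  decide +kernel

theorem cycloVal_three {a : ℕ} (ha : 1 < a) : cycloVal 3 a = a ^ 2 + a + 1 := by
  have h : (cycloVal 3 a : ℤ) = ((a ^ 2 + a + 1 : ℕ) : ℤ) := by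
    rw [cast_cycloVal ha, cyclotomic_three]; simp
  exact_mod_cast h

theorem cycloVal_four {a : ℕ} (ha : 1 < a) : cycloVal 4 a = a ^ 2 + 1 := by
  have h1 := cycloVal_prime_mul_of_dvd (a := a) (p := 2) (m := 2) Nat.prime_two dvd_rfl
  have h : (cycloVal 2 (a ^ 2) : ℤ) = ((a ^ 2 + 1 : ℕ) : ℤ) := by
    rw [cast_cycloVal (one_lt_pow₀ ha two_ne_zero), cyclotomic_two]; simp
  rw [show (4 : ℕ) = 2 * 2 by norm_num, h1]
  exact_mod_cast h

theorem cycloVal_six {a : ℕ} (ha : 1 < a) : cycloVal 6 a + a = a ^ 2 + 1 := by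
  have h1 := cycloVal_prime_mul_mul (a := a) (p := 2) (m := 3) Nat.prime_two (by norm_num)
  rw [cycloVal_three ha, cycloVal_three (one_lt_pow₀ ha two_ne_zero)] at h1
  norm_num at h1
  generalize cycloVal 6 a = x at h1 ⊢
  have h2 : (x + a) * (a ^ 2 + a + 1) = (a ^ 2 + 1) * (a ^ 2 + a + 1) := by nlinarith
  exact mul_right_cancel₀ (by positivity) h2

theorem five_pow_le (a : ℕ) : a ≤ 5 ^ a := (Nat.lt_pow_self (by norm_num)).le

/-- The cyclotomic value under the hypothesis on primitive prime divisors. -/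
theorem cycloVal_dvd_parts {p n P : ℕ} (hp : 1 < p) (hn : 2 < n)
    (hP : ∀ l, l.Prime → l ∣ n → (∀ l', l'.Prime → l' ∣ n → l' ≤ l) → l ∣ P)
    (hppd : ∀ r, IsPpd p n r → r = n + 1 ∨ (r = 2 * n + 1 ∧ ¬ r ^ 2 ∣ p ^ n - 1)) :
    cycloVal n p ∣ P * extraPart n * (n + 1) ^ (cycloVal n p).factorization (n + 1) := by
  rw [Nat.dvd_iff_prime_pow_dvd_dvd]
  intro l k hl hlk
  rcases Nat.eq_zero_or_pos k with rfl | hk
  · simp
  have hlΦ : l ∣ cycloVal n p := (dvd_pow_self l hk.ne').trans hlk
  have hk1 : (¬ l ^ 2 ∣ cycloVal n p) → k = 1 := fun h => by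
    by_contra hne
    exact h ((pow_dvd_pow l (show 2 ≤ k by omega)).trans hlk)
  by_cases hln : l ∣ n
  · rw [hk1 (not_sq_dvd_cycloVal hp hn hl hln), pow_one]
    exact dvd_mul_of_dvd_left (dvd_mul_of_dvd_left (hP l hl hln fun l' hl' hl'n =>
      prime_le_of_dvd_cycloVal hp (by omega) hl hln hlΦ hl' hl'n) _) _
  have hppd' := isPpd_of_dvd_cycloVal hp (by omega) hl hln hlΦ
  rcases hppd l hppd' with rfl | ⟨rfl, hsq⟩
  · refine dvd_mul_of_dvd_right (pow_dvd_pow _ ?_) _
    exact (hl.pow_dvd_iff_le_factorization (cycloVal_pos hp n).ne').1 hlk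
  · rw [hk1 fun h => hsq (h.trans (cycloVal_dvd hp n)), pow_one, extraPart,
      if_pos (maybePrime_of_prime hl)]
    exact dvd_mul_of_dvd_left (dvd_mul_left _ _) _

theorem large_pow {φ : ℕ} (h : 11 ≤ φ) : 30 * φ ^ 6 < 6 ^ φ := by
  induction φ, h using Nat.le_induction with
  | base => norm_num
  | succ φ h ih =>
    have h1 : (φ + 1) ^ 6 ≤ 6 * φ ^ 6 := by
      calc (φ + 1) ^ 6 ≤ (φ + φ / 10 + 1) ^ 6 := Nat.pow_le_pow_left (by omega) 6
        _ ≤ 6 * φ ^ 6 := by
          have h10 : 10 * (φ + φ / 10 + 1) ≤ 13 * φ := by omega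
          have := Nat.pow_le_pow_left h10 6
          rw [mul_pow, mul_pow] at this
          norm_num at this
          omega
    rw [pow_succ 6 φ]
    nlinarith

/-- The bound on the exponent of `n + 1`. -/
theorem arith_bound {p n : ℕ} (hp : p.Prime) (h7 : 7 ≤ p) (hn : 3 ≤ n)
    (hppd : ∀ r, IsPpd p n r → r = n + 1 ∨ (r = 2 * n + 1 ∧ ¬ r ^ 2 ∣ p ^ n - 1)) :
    (∃ a, (n + 1).Prime ∧ IsPpd p n (n + 1) ∧ (n + 1) ^ (a + 1) ∣ p ^ n - 1 ∧
      n * (p - 2) < (n + 1) ^ (a + 1) - 1) ∨ (p = 17 ∧ n = 6) := by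
  have hp1 : 1 < p := hp.one_lt
  set Φ := cycloVal n p with hΦ
  set a := Φ.factorization (n + 1) with ha
  have hΦpos : 0 < Φ := cycloVal_pos hp1 n
  have hfin : 2 ≤ a → n * (p - 2) + 1 < (n + 1) ^ a → ∃ b, (n + 1).Prime ∧ IsPpd p n (n + 1) ∧
      (n + 1) ^ (b + 1) ∣ p ^ n - 1 ∧ n * (p - 2) < (n + 1) ^ (b + 1) - 1 := by
    intro ha2 hlt
    have hpr : (n + 1).Prime := by
      by_contra h
      rw [ha, Nat.factorization_eq_zero_of_not_prime _ h] at ha2
      omega
    have hdvd : (n + 1) ^ a ∣ Φ := Nat.ordProj_dvd _ _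
    refine ⟨a - 1, hpr, ?_, ?_, ?_⟩
    · refine isPpd_of_dvd_cycloVal hp1 (by omega) hpr (fun h => ?_)
        ((dvd_pow_self _ (by omega)).trans hdvd)
      have := Nat.le_of_dvd (by omega) h
      omega
    · rw [Nat.sub_add_cancel (by omega)]; exact hdvd.trans (cycloVal_dvd hp1 n)
    · rw [Nat.sub_add_cancel (by omega)]; omega
  have ha1 : a ≤ 1 → (n + 1) ^ a ≤ succPart n := fun h => by
    rcases Nat.le_one_iff_eq_zero_or_eq_one.1 h with h0 | h0
    · rw [h0, pow_zero, succPart]; split <;> omega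
    · have hpr : (n + 1).Prime := by
        by_contra hc
        rw [ha, Nat.factorization_eq_zero_of_not_prime _ hc] at h0
        omega
      rw [h0, pow_one, succPart, if_pos (maybePrime_of_prime hpr)]
  by_cases h346 : n = 3 ∨ n = 4 ∨ n = 6
  · rcases h346 with rfl | rfl | rfl
    · exfalso
      have hd := cycloVal_dvd_parts (P := 3) hp1 (by norm_num) (fun l hl h3 _ => h3) hppd
      rw [Nat.factorization_eq_zero_of_not_prime _ (by norm_num : ¬ (3 + 1).Prime), pow_zero,
        mul_one, cycloVal_three hp1] at hd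
      rw [show extraPart 3 = 7 by decide] at hd
      have h1 := Nat.le_of_dvd (by norm_num) hd
      nlinarith
    · left
      have hd := cycloVal_dvd_parts (P := 2) hp1 (by norm_num)
        (fun l hl h4 _ => (Nat.prime_dvd_prime_iff_eq hl Nat.prime_two).1
          (hl.dvd_of_dvd_pow (show l ∣ 2 ^ 2 by norm_num; exact h4)) ▸ dvd_rfl) hppd
      have hE : extraPart 4 = 1 := by decide
      rw [hE, mul_one, ← hΦ, ← ha] at hd
      have h1 := Nat.le_of_dvd (by positivity) hd
      rw [hΦ, cycloVal_four hp1] at h1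
      norm_num at h1
      have h2 : 2 ≤ a := by
        by_contra hcon
        have : (5 : ℕ) ^ a ≤ 5 ^ 1 := Nat.pow_le_pow_right (by norm_num) (by omega)
        nlinarith
      refine hfin h2 ?_
      norm_num
      obtain ⟨t, rfl⟩ : ∃ t, p = t + 2 := ⟨p - 2, by omega⟩
      simp only [Nat.add_sub_cancel]
      nlinarith
    · have hd := cycloVal_dvd_parts (P := 3) hp1 (by norm_num) (fun l hl h6 hmax => by
        have h3 := hmax 3 Nat.prime_three (by norm_num)
        rcases (Nat.Prime.dvd_mul hl).1 (show l ∣ 2 * 3 by norm_num; exact h6) with h | h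
        · have := Nat.le_of_dvd two_pos h; omega
        · exact h) hppd
      have hE : extraPart 6 = 13 := by decide
      rw [hE, ← hΦ, ← ha] at hd
      have h1 := Nat.le_of_dvd (by positivity) hd
      norm_num at h1 hd
      have h6 := cycloVal_six hp1
      rw [← hΦ] at h6
      have hdvd : 7 ^ a ∣ Φ := Nat.ordProj_dvd Φ 7
      by_cases ha2 : 2 ≤ a
      · left
        refine hfin ha2 ?_
        norm_num
        by_contra hcon
        push Not at hcon
        have h49 : 49 ≤ 7 ^ a := (show (49:ℕ) = 7 ^ 2 by norm_num) ▸ Nat.pow_le_pow_right (by norm_num) ha2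
        have hp233 : p < 235 := by
          by_contra hbig
          push Not at hbig
          have : 7 ^ a ≤ 6 * p := by omega
          nlinarith
        have ha3 : a ≤ 3 := by
          by_contra h4
          have : 7 ^ 4 ≤ 7 ^ a := Nat.pow_le_pow_right (by norm_num) (by omega)
          omega
        have hp10 : 10 ≤ p := by omega
        have h49' : 49 ∣ Φ := ((show (49:ℕ) = 7 ^ 2 by norm_num) ▸ pow_dvd_pow 7 ha2).trans hdvd
        have hcases : ∀ q < 235, 10 ≤ q → 49 ∣ q ^ 2 + 1 - q →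
            (q ^ 2 + 1 - q ∣ 39 * 7 ^ 2 ∧ 49 < 6 * (q - 2) + 2 ∨
              q ^ 2 + 1 - q ∣ 39 * 7 ^ 3 ∧ 343 < 6 * (q - 2) + 2) → ¬ q.Prime := by
          decide +kernel
        have hΦeq : p ^ 2 + 1 - p = Φ := by omega
        refine hcases p hp233 hp10 (hΦeq ▸ h49') ?_ hp
        rw [hΦeq]
        rcases (show a = 2 ∨ a = 3 by omega) with h' | h' <;> rw [h'] at hd hcon
        · exact Or.inl ⟨hd, by omega⟩
        · exact Or.inr ⟨hd, by omega⟩
      · right
        refine ⟨?_, rfl⟩
        have h7a : 7 ^ a ≤ 7 := by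
          calc (7:ℕ) ^ a ≤ 7 ^ 1 := Nat.pow_le_pow_right (by norm_num) (by omega)
            _ = 7 := pow_one 7
        have hp17 : p ≤ 17 := by nlinarith
        have h273 : Φ ∣ 273 := hd.trans (by
          rcases (show a = 0 ∨ a = 1 by omega) with h' | h' <;> rw [h'] <;> norm_num)
        have hcases : ∀ q ≤ 17, 7 ≤ q → q ^ 2 + 1 - q ∣ 273 → q = 17 ∨ ¬ q.Prime := by
          decide +kernel
        exact (hcases p hp17 h7 ((show p ^ 2 + 1 - p = Φ by omega) ▸ h273)).resolve_right
          (fun h => h hp)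
  push Not at h346
  have hφn := (le_two_mul_totient_sq n).1
  have hφeven := Nat.totient_even (show 2 < n by omega)
  have hφ4 : 4 ≤ n.totient := by
    obtain ⟨s, hs⟩ := hφeven
    by_contra hcon
    have hs1 : s ≤ 1 := by omega
    rcases Nat.le_one_iff_eq_zero_or_eq_one.1 hs1 with rfl | rfl
    · rw [hs] at hφn; omega
    · rw [hs] at hφn
      have : n ≤ 8 := by omega
      interval_cases n <;> first | omega | (revert hs; decide)
  have hd := cycloVal_dvd_parts (P := n) hp1 (by omega) (fun l _ h _ => h) hppd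
  rw [← hΦ, ← ha] at hd
  have hEpos : 0 < extraPart n := by rw [extraPart]; split <;> omega
  have hle := Nat.le_of_dvd (Nat.mul_pos (Nat.mul_pos (by omega) hEpos) (by positivity)) hd
  have hlow := sub_one_pow_le_cycloVal hp1 n
  rw [← hΦ] at hlow
  have hEle := extraPart_le n
  by_cases ha2 : a ≤ 1
  · exfalso
    have h6 : 6 ^ n.totient ≤ (p - 1) ^ n.totient := Nat.pow_le_pow_left (by omega) _
    have hb : 6 ^ n.totient ≤ n * extraPart n * succPart n :=
      h6.trans (hlow.trans (hle.trans (Nat.mul_le_mul_left _ (ha1 ha2))))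
    by_cases hsmall : n < 201
    · exact absurd hb (not_le.2 (small_table n hsmall (by omega) (by omega)))
    · have hs : succPart n ≤ n + 1 := by rw [succPart]; split <;> omega
      have h11 : 11 ≤ n.totient := by
        by_contra hc
        have : n.totient ^ 2 ≤ 10 ^ 2 := Nat.pow_le_pow_left (by omega) 2
        omega
      have := large_pow h11
      have h30 : n * extraPart n * succPart n ≤ 30 * n.totient ^ 6 := by
        set φ := n.totient
        have hm : 1 ≤ φ ^ 2 := Nat.one_le_pow _ _ (by omega)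
        calc n * extraPart n * succPart n ≤ (2 * φ ^ 2) * (5 * φ ^ 2) * (3 * φ ^ 2) := by
              gcongr <;> omega
          _ = 30 * φ ^ 6 := by ring
      omega
  left
  have hpr : (n + 1).Prime := by
    by_contra h
    rw [ha, Nat.factorization_eq_zero_of_not_prime _ h] at ha2
    omega
  have hsq : (n + 1) ^ 2 ≤ (n + 1) ^ a := Nat.pow_le_pow_right (by omega) (by omega)
  refine hfin (by omega) ?_
  by_cases hpn : p ≤ n + 3
  · have : n * (p - 2) ≤ n * (n + 1) := Nat.mul_le_mul_left _ (by omega)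
    nlinarith
  have hp1' : p ≤ 2 * (p - 1) := by omega
  have hkey : n * extraPart n * (n * p) ≤ (p - 1) ^ n.totient := by
    by_cases hφ6 : 6 ≤ n.totient
    · calc n * extraPart n * (n * p) ≤ n * (2 * n + 1) * (n * (2 * (p - 1))) := by gcongr
        _ = 2 * (2 * n + 1) * n ^ 2 * (p - 1) := by ring
        _ ≤ (n + 3) ^ 5 * (p - 1) := by
          gcongr
          calc 2 * (2 * n + 1) * n ^ 2 ≤ 6 * (n + 3) ^ 3 := by nlinarith
            _ ≤ (n + 3) ^ 2 * (n + 3) ^ 3 := by gcongr; nlinarith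
            _ = (n + 3) ^ 5 := by ring
        _ ≤ (p - 1) ^ 5 * (p - 1) := by gcongr; omega
        _ = (p - 1) ^ 6 := by ring
        _ ≤ (p - 1) ^ n.totient := Nat.pow_le_pow_right (by omega) hφ6
    · have hφ : n.totient = 4 := by obtain ⟨s, hs⟩ := hφeven; omega
      have hE1 : extraPart n = 1 := by
        have hn32 : n < 33 := by rw [hφ] at hφn; omega
        rw [extraPart, if_neg (by
          rw [four_table n hn32 (maybePrime_of_prime hpr) hφ (by omega)]; simp)]
      rw [hφ, hE1]
      calc n * 1 * (n * p) ≤ n * 1 * (n * (2 * (p - 1))) := by gcongr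
        _ = 2 * n ^ 2 * (p - 1) := by ring
        _ ≤ (n + 3) ^ 3 * (p - 1) := by gcongr; nlinarith
        _ ≤ (p - 1) ^ 3 * (p - 1) := by gcongr; omega
        _ = (p - 1) ^ 4 := by ring
  have h2 : n * extraPart n * (n * p) ≤ n * extraPart n * (n + 1) ^ a :=
    hkey.trans (hlow.trans hle)
  have h3 := Nat.le_of_mul_le_mul_left h2 (Nat.mul_pos (by omega) hEpos)
  have h4 : n * (p - 2) + 2 * n = n * p := by rw [mul_comm 2 n, ← Nat.mul_add, Nat.sub_add_cancel (by omega)]
  omega

end CfsgLib.CoprimeTransitive
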