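import Mathlib
import Cfsg.Agent.Lib.PermGroups.RegularTypes

/-!
# Lower bounds for class numbers from cyclic subgroups of linear groups

Conjugate elements of a linear group of degree `n` have the same minimal polynomial, so a class
meets a cyclic subgroup with a faithful eigenvalue, or a subgroup inside a field of endomorphisms,
in at most `n` elements.
-/

set_option autoImplicit false
set_option linter.unusedSectionVars false
set_option linter.style.haveILetI false

namespace CfsgLib.CoprimeTransitive

open Module Polynomial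

variable {H : Type*} [Group H] [Finite H]

/-- The non-trivial classes meeting a subgroup. -/
def meeting (C : Subgroup H) : Set (ConjClasses H) :=
  {c | ∃ y ∈ C, y ≠ 1 ∧ ConjClasses.mk y = c}

/-- If a class meets `C` in at most `n` elements, `|C| - 1 ≤ n` times the classes meeting `C`. -/
theorem card_sub_one_le (C : Subgroup H) (n : ℕ)
    (h : ∀ x ∈ C, x ≠ 1 → Nat.card {y : C // IsConj x (y : H)} ≤ n) :
    Nat.card C - 1 ≤ n * (meeting C).ncard := by
  classical
  haveI := Fintype.ofFinite H
  let s : Finset C := Finset.univ.erase 1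
  let f : C → ConjClasses H := fun y => ConjClasses.mk (y : H)
  have hs : s.card = Nat.card C - 1 := by
    rw [Finset.card_erase_of_mem (Finset.mem_univ _), Finset.card_univ, Nat.card_eq_fintype_card]
  have him : (s.image f).card ≤ (meeting C).ncard := by
    rw [← Set.ncard_coe_finset]
    refine Set.ncard_le_ncard ?_ (Set.toFinite _)
    intro c hc
    simp only [Finset.coe_image, Set.mem_image, Finset.mem_coe] at hc
    obtain ⟨y, hy, rfl⟩ := hc
    exact ⟨y, y.2, fun h0 => (Finset.mem_erase.1 hy).1 (Subtype.ext h0), rfl⟩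
  rw [← hs]
  refine (Finset.card_le_mul_card_image (f := f) s n ?_).trans (Nat.mul_le_mul_left _ him)
  intro c hc
  obtain ⟨x, hx, rfl⟩ := Finset.mem_image.1 hc
  refine le_trans ?_ (h x x.2 fun h0 => (Finset.mem_erase.1 hx).1 (Subtype.ext h0))
  rw [Nat.card_eq_fintype_card, Fintype.card_subtype]
  exact Finset.card_le_card fun y hy => by
    simp only [Finset.mem_filter, Finset.mem_univ, true_and] at hy ⊢
    exact (ConjClasses.mk_eq_mk_iff_isConj.1 hy.2).symm

/-- Classes meeting subgroups with trivial intersection up to conjugacy. -/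
theorem ncard_add_one_le {S : Set (ConjClasses H)} (hS : ConjClasses.mk 1 ∉ S) :
    S.ncard + 1 ≤ Nat.card (ConjClasses H) := by
  have h := Set.ncard_insert_of_notMem hS (Set.toFinite _)
  rw [← h, ← Set.ncard_univ]
  exact Set.ncard_le_ncard (Set.subset_univ _) (Set.toFinite _)

theorem one_notMem_meeting (C : Subgroup H) : ConjClasses.mk 1 ∉ meeting C := by
  rintro ⟨y, -, hy1, hy⟩
  exact hy1 (isConj_one_left.1 (ConjClasses.mk_eq_mk_iff_isConj.1 hy))

/-- An element with a faithful eigenvalue meets each class at most `n` times. -/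
theorem orderOf_sub_one_le {k V : Type*} [Field k] [IsAlgClosed k] [CharZero k] [AddCommGroup V]
    [Module k V] [FiniteDimensional k V] (ρ : Representation k H V) (hρ : Function.Injective ρ)
    {r a : ℕ} (hr : r.Prime) (x : H) (hx : orderOf x = r ^ (a + 1)) :
    r ^ (a + 1) - 1 ≤ finrank k V * (meeting (Subgroup.zpowers x)).ncard := by
  classical
  have hxm : ρ x ^ r ^ (a + 1) = 1 := by rw [← map_pow, ← hx, pow_orderOf_eq_one, map_one]
  have hint : IsIntegral k (ρ x) := Algebra.IsIntegral.isIntegral _
  obtain ⟨μ, hroot, hprim⟩ : ∃ μ : k, (minpoly k (ρ x)).IsRoot μ ∧ orderOf μ = r ^ (a + 1) := by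
    by_contra hno
    push Not at hno
    have hdvd : minpoly k (ρ x) ∣ X ^ r ^ (a + 1) - 1 := minpoly.dvd k _ (by simp [hxm])
    have hsep : (X ^ r ^ (a + 1) - 1 : k[X]).Separable :=
      separable_X_pow_sub_C (1 : k) (by exact_mod_cast (pow_pos hr.pos _).ne') one_ne_zero
    have hsq : (minpoly k (ρ x)).Separable := hsep.of_dvd hdvd
    have hall : ∀ μ ∈ (minpoly k (ρ x)).roots, μ ^ r ^ a = 1 := by
      intro μ hμ
      have hμr := (mem_roots'.1 hμ).2
      have h1 : μ ^ r ^ (a + 1) = 1 := by
        have := hμr.dvd hdvd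
        simpa [sub_eq_zero] using this
      obtain ⟨i, hi, hieq⟩ := (Nat.dvd_prime_pow hr).1 (orderOf_dvd_of_pow_eq_one h1)
      have hne := hno μ hμr
      have : i ≠ a + 1 := fun e => hne (e ▸ hieq)
      exact orderOf_dvd_iff_pow_eq_one.1 (hieq ▸ pow_dvd_pow r (by omega))
    have hdvd' : minpoly k (ρ x) ∣ X ^ r ^ a - 1 := by
      rw [(IsAlgClosed.splits _).eq_prod_roots_of_monic (minpoly.monic hint)]
      refine (Multiset.prod_X_sub_C_dvd_iff_le_roots ?_ _).2 ?_
      · intro h
        have := congrArg (fun q : k[X] => q.natDegree) h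
        rw [← C_1, natDegree_X_pow_sub_C, natDegree_zero] at this
        exact (pow_pos hr.pos _).ne' this
      · refine Multiset.le_iff_count.2 fun μ => ?_
        by_cases hμ : μ ∈ (minpoly k (ρ x)).roots
        · rw [Multiset.count_eq_one_of_mem (nodup_roots hsq) hμ, Multiset.one_le_count_iff_mem,
            mem_roots']
          refine ⟨?_, by simp [hall μ hμ]⟩
          intro h
          have := congrArg (fun q : k[X] => q.natDegree) h
          rw [← C_1, natDegree_X_pow_sub_C, natDegree_zero] at this
          exact (pow_pos hr.pos _).ne' this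
        · rw [Multiset.count_eq_zero_of_notMem hμ]
          exact Nat.zero_le _
    have h1 : ρ x ^ r ^ a = 1 := by
      obtain ⟨q, hq⟩ := hdvd'
      have := congrArg (aeval (ρ x)) hq
      simpa [sub_eq_zero] using this
    have h2 : x ^ r ^ a = 1 := hρ (by rw [map_pow, h1, map_one])
    have h3 := orderOf_dvd_of_pow_eq_one h2
    rw [hx] at h3
    have := (Nat.pow_dvd_pow_iff_le_right hr.one_lt).1 h3
    omega
  obtain ⟨v, hv⟩ := (Module.End.hasEigenvalue_of_isRoot hroot).exists_hasEigenvector
  have hcard : Nat.card (Subgroup.zpowers x) = r ^ (a + 1) := by rw [Nat.card_zpowers, hx]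
  rw [← hcard]
  refine card_sub_one_le _ _ fun y hy _ => ?_
  obtain ⟨j, rfl⟩ : ∃ j : ℕ, x ^ j = y := by
    obtain ⟨j, -, hj⟩ := Finset.mem_image.1 (mem_zpowers_iff_mem_range_orderOf.1 hy)
    exact ⟨j, hj⟩
  set f := minpoly k (ρ (x ^ j)) with hf
  have hfint : IsIntegral k (ρ (x ^ j)) := Algebra.IsIntegral.isIntegral _
  have hf0 : f ≠ 0 := minpoly.ne_zero hfint
  have hdeg : f.natDegree ≤ finrank k V := by
    rw [← LinearMap.charpoly_natDegree (ρ (x ^ j))]
    exact natDegree_le_of_dvd (minpoly.dvd k _ (LinearMap.aeval_self_charpoly _))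
      (LinearMap.charpoly_monic _).ne_zero
  have hchoose : ∀ y : {y : Subgroup.zpowers x // IsConj (x ^ j) (y : H)},
      ∃ i < orderOf x, x ^ i = (y.1 : H) := fun y => by
    obtain ⟨i, hi, hie⟩ := Finset.mem_image.1 (mem_zpowers_iff_mem_range_orderOf.1 y.1.2)
    exact ⟨i, Finset.mem_range.1 hi, hie⟩
  choose i hi hie using hchoose
  have hmem : ∀ y, μ ^ i y ∈ f.roots := by
    intro y
    refine mem_roots'.2 ⟨hf0, ?_⟩
    obtain ⟨c, hc⟩ := isConj_iff.1 y.2
    have h0 : aeval (ρ (y.1 : H)) f = 0 := by
      let u : (Module.End k V)ˣ := MonoidHom.toHomUnits ρ c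
      have hu : ρ (y.1 : H) = MulSemiringAction.toAlgEquiv k (Module.End k V)
          (ConjAct.toConjAct u) (ρ (x ^ j)) := by
        rw [MulSemiringAction.toAlgEquiv_apply, ConjAct.units_smul_def, ConjAct.ofConjAct_toConjAct,
          ← map_inv, ← hc]
        simp only [u, MonoidHom.coe_toHomUnits, map_mul]
      rw [hu, Polynomial.aeval_algHom_apply, hf, minpoly.aeval, map_zero]
    have hev : ρ (y.1 : H) v = μ ^ i y • v := by rw [← hie y, map_pow, hv.pow_apply]
    have h2 := Module.End.aeval_apply_of_hasEigenvector (f := ρ (y.1 : H)) (p := f)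
      (μ := μ ^ i y) ⟨Module.End.mem_eigenspace_iff.2 hev, hv.2⟩
    rw [h0, LinearMap.zero_apply, eq_comm, smul_eq_zero] at h2
    exact h2.resolve_right hv.2
  refine le_trans ?_ ((f.card_roots').trans hdeg)
  refine le_trans ?_ (Multiset.toFinset_card_le _)
  rw [← Nat.card_eq_finsetCard]
  refine Nat.card_le_card_of_injective (fun y => ⟨μ ^ i y, Multiset.mem_toFinset.2 (hmem y)⟩) ?_
  intro y z hyz
  have h1 : μ ^ i y = μ ^ i z := congrArg Subtype.val hyz
  have h2 : i y = i z := by
    refine pow_injOn_Iio_orderOf (x := μ) ?_ ?_ h1 <;> rw [Set.mem_Iio, hprim, ← hx]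
    · exact hi y
    · exact hi z
  exact Subtype.ext (Subtype.ext (by rw [← hie y, ← hie z, h2]))

open CfsgLib.PermGroups.Regular in
/-- A subgroup inside a field of endomorphisms meets each class at most `n` times. -/
theorem card_sub_one_le_of_isInj {p : ℕ} [Fact p.Prime] {V : Type*} [AddCommGroup V]
    [Module (ZMod p) V] [Finite V] [Nontrivial V] {G : Subgroup (V ≃ₗ[ZMod p] V)}
    {S : Subalgebra (ZMod p) (Module.End (ZMod p) V)} (hS : IsInj S) {C : Subgroup G}
    (hC : ∀ g ∈ C, endHom G g ∈ S) :
    Nat.card C - 1 ≤ finrank (ZMod p) V * (meeting C).ncard := by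
  classical
  haveI : Module.Finite (ZMod p) V := Module.Finite.of_finite
  haveI : Finite (Module.End (ZMod p) V) :=
    Finite.of_injective (fun f : Module.End (ZMod p) V => (f : V → V)) DFunLike.coe_injective
  haveI : Finite G := Finite.of_injective (endHom G) (endHom_injective G)
  letI : Field S := hS.isField.toField
  refine card_sub_one_le _ _ fun x hx _ => ?_
  set f := minpoly (ZMod p) (endHom G x) with hf
  have hint : IsIntegral (ZMod p) (endHom G x) := Algebra.IsIntegral.isIntegral _
  have hdeg : f.natDegree ≤ finrank (ZMod p) V := by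
    rw [← LinearMap.charpoly_natDegree (endHom G x)]
    exact natDegree_le_of_dvd (minpoly.dvd _ _ (LinearMap.aeval_self_charpoly _))
      (LinearMap.charpoly_monic _).ne_zero
  let φ : {y : C // IsConj x (y : G)} → S := fun y => ⟨endHom G (y.1 : G), hC _ y.1.2⟩
  have hf' : f.map (algebraMap (ZMod p) S) ≠ 0 :=
    (Polynomial.map_ne_zero_iff (algebraMap (ZMod p) S).injective).2 (minpoly.ne_zero hint)
  have hmem : ∀ y, φ y ∈ (f.map (algebraMap (ZMod p) S)).roots := by
    intro y
    refine (mem_roots hf').2 ?_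
    rw [IsRoot.def, eval_map, ← aeval_def]
    refine Subtype.coe_injective ?_
    show ((aeval (φ y) f : S) : Module.End (ZMod p) V) = ((0 : S) : Module.End (ZMod p) V)
    refine (Polynomial.aeval_algHom_apply S.val (φ y) f).symm.trans ?_
    obtain ⟨c, hc⟩ := isConj_iff.1 y.2
    let u : (Module.End (ZMod p) V)ˣ := MonoidHom.toHomUnits (endHom G) c
    have hu : endHom G (y.1 : G) = MulSemiringAction.toAlgEquiv (ZMod p) (Module.End (ZMod p) V)
        (ConjAct.toConjAct u) (endHom G x) := by
      rw [MulSemiringAction.toAlgEquiv_apply, ConjAct.units_smul_def, ConjAct.ofConjAct_toConjAct,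
        ← map_inv, ← hc]
      simp only [u, MonoidHom.coe_toHomUnits, map_mul]
    show aeval (endHom G (y.1 : G)) f = ((0 : S) : Module.End (ZMod p) V)
    rw [ZeroMemClass.coe_zero]
    rw [hu, Polynomial.aeval_algHom_apply, hf, minpoly.aeval, map_zero]
  refine le_trans ?_ (((f.map (algebraMap (ZMod p) S)).card_roots').trans
    (natDegree_map_le.trans hdeg))
  refine le_trans ?_ (Multiset.toFinset_card_le _)
  rw [← Nat.card_eq_finsetCard]
  refine Nat.card_le_card_of_injective (fun y => ⟨φ y, Multiset.mem_toFinset.2 (hmem y)⟩) ?_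
  intro y z hyz
  exact Subtype.ext (Subtype.ext (endHom_injective G
    (congrArg Subtype.val (congrArg Subtype.val hyz :))))

end CfsgLib.CoprimeTransitive
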