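import Cfsg.Agent.Lib.CoprimeTransitive.Structure
import Cfsg.Agent.Lib.CharTheory.Degree
import Cfsg.Agent.Lib.CharTheory.Inflation
import Cfsg.Agent.Lib.CharTheory.Orthogonality
import Cfsg.Agent.Lib.ClassicalLinear.Generation

/-!
# An extension of `11 ^ 2 : SL(2,5)` by a non-trivial `11'`-group has at least eleven `11`-regular classes
-/

set_option autoImplicit false
set_option linter.unusedSectionVars false
set_option linter.style.haveILetI false

namespace CfsgLib.CoprimeTransitive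

open Cfsg CfsgLib.CharTheory
open scoped MatrixGroups

theorem sl_two_five_facts : commutator (SL(2, ZMod 5)) = ⊤ ∧
    ∃ z : SL(2, ZMod 5), z ≠ 1 ∧ z * z = 1 ∧ ∀ a, a * z = z * a := by
  haveI : Fact (Nat.Prime 5) := ⟨Nat.prime_five⟩
  refine ⟨CfsgLib.ClassicalLinear.commutator_sl_eq_top
    (Or.inr (CfsgLib.ClassicalLinear.exists_sq_ne_one_of_four_le_card
      (by rw [Nat.card_zmod]; norm_num))), -1, by decide, by simp, fun a => ?_⟩
  ext i j
  simp

/-- A pair with a common image is unique when the source has one point more than the target. -/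
theorem pair_eq {X Y : Type*} [Finite X] {φ : X → Y} (hφ : Function.Surjective φ)
    (hcard : Nat.card X ≤ Nat.card Y + 1) {a b c d : X} (hab : a ≠ b) (h1 : φ a = φ b) (hcd : c ≠ d)
    (h2 : φ c = φ d) : c = b ∧ d = a ∨ c = a ∧ d = b := by
  classical
  haveI := Fintype.ofFinite X
  haveI : Finite Y := Finite.of_surjective φ hφ
  let g : {x : X // x ≠ b} → Y := fun x => φ x.1
  have hg : Function.Surjective g := fun y => by
    obtain ⟨x, rfl⟩ := hφ y
    by_cases hx : x = b
    · exact ⟨⟨a, hab⟩, by rw [hx]; exact h1⟩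
    · exact ⟨⟨x, hx⟩, rfl⟩
  have hc : Nat.card {x : X // x ≠ b} + 1 = Nat.card X := by
    rw [Nat.card_eq_fintype_card, Nat.card_eq_fintype_card, Fintype.card_subtype_compl,
      Fintype.card_subtype_eq]
    have := Fintype.card_pos_iff.2 ⟨b⟩
    omega
  have hle := Nat.card_le_card_of_surjective g hg
  have hinj := ((Nat.bijective_iff_surjective_and_card g).2 ⟨hg, by omega⟩).1
  by_cases hcb : c = b
  · refine Or.inl ⟨hcb, ?_⟩
    have hdb : d ≠ b := fun h => hcd (hcb.trans h.symm)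
    exact congrArg Subtype.val
      (hinj (a₁ := ⟨d, hdb⟩) (a₂ := ⟨a, hab⟩) (by change φ d = φ a; rw [← h2, hcb, h1]))
  · by_cases hdb : d = b
    · refine Or.inr ⟨?_, hdb⟩
      exact congrArg Subtype.val
        (hinj (a₁ := ⟨c, hcb⟩) (a₂ := ⟨a, hab⟩) (by change φ c = φ a; rw [h2, hdb, h1]))
    · exact absurd (congrArg Subtype.val (hinj (a₁ := ⟨c, hcb⟩) (a₂ := ⟨d, hdb⟩) h2)) hcd

section

variable {G Q : Type*} [Group G] [Finite G] [Group Q] [Finite Q] {π : G →* Q}

theorem regular_of_map {p : ℕ} [hp : Fact p.Prime] (hK : ¬ p ∣ Nat.card π.ker) {x : G}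
    (hx : ¬ p ∣ orderOf (π x)) : ¬ p ∣ orderOf x := by
  intro hd
  have hmem : x ^ orderOf (π x) ∈ π.ker := by rw [MonoidHom.mem_ker, map_pow, pow_orderOf_eq_one]
  have h1 : orderOf x ∣ orderOf (π x) * Nat.card π.ker := by
    refine orderOf_dvd_of_pow_eq_one ?_
    rw [pow_mul]
    exact congrArg Subtype.val (pow_card_eq_one' (x := (⟨_, hmem⟩ : π.ker)))
  rcases hp.out.dvd_mul.1 (hd.trans h1) with h | h
  · exact hx h
  · exact hK h

variable [Fact (Nat.Prime 11)] (hπ : Function.Surjective π) (hK : ¬ 11 ∣ Nat.card π.ker) (hKne : π.ker ≠ ⊥)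
  {V H : Subgroup Q} (S : Split 11 V H) (hV : Nat.card V = 121) (hH : Nat.card H = 120)
  (e : H ≃* SL(2, ZMod 5))

include S hV hH in
/-- The complement is regular. -/
theorem fpf {h : Q} (hh : h ∈ H) {v : Q} (hv : v ∈ V) (hv1 : v ≠ 1) (hc : h * v = v * h) : h = 1 := by
  classical
  haveI := S.normal
  haveI := Fintype.ofFinite V
  let f : H → {w : V // w ≠ 1} := fun a =>
    ⟨⟨(a : Q) * v * (a : Q)⁻¹, S.normal.conj_mem v hv a⟩, fun hone => hv1 (by
      have h1 := congrArg (Subtype.val) hone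
      change (a : Q) * v * (a : Q)⁻¹ = 1 at h1
      rwa [conj_eq_one_iff] at h1)⟩
  have hf : Function.Surjective f := by
    rintro ⟨⟨w, hw⟩, hw1⟩
    obtain ⟨a, ha, hc⟩ := S.trans v hv w hw hv1 fun h => hw1 (Subtype.ext h)
    exact ⟨⟨a, ha⟩, Subtype.ext (Subtype.ext hc)⟩
  have hcard : Nat.card {w : V // w ≠ 1} = 120 := by
    rw [Nat.card_eq_fintype_card, Fintype.card_subtype_compl, Fintype.card_subtype_eq,
      ← Nat.card_eq_fintype_card, hV]
  have hbij := (Nat.bijective_iff_surjective_and_card f).2 ⟨hf, by rw [hH, hcard]⟩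
  have := hbij.1 (a₁ := ⟨h, hh⟩) (a₂ := 1) (Subtype.ext (Subtype.ext (by simp [f, hc])))
  exact congrArg Subtype.val this

include S hV hH e in
/-- The central involution of the complement inverts the normal subgroup and has it as centralizer. -/
theorem exists_inverting : ∃ z ∈ H, z ≠ 1 ∧ z * z = 1 ∧ (∀ v ∈ V, z * v * z⁻¹ = v⁻¹) ∧
    (∀ x : Q, x * z = z * x → x ∈ H) ∧ ∀ a ∈ H, a * z = z * a := by
  obtain ⟨-, z₀, hz1, hz2, hzc⟩ := sl_two_five_facts
  set z := e.symm z₀
  have hz : (z : Q) ≠ 1 := fun h => hz1 (by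
    have : z = 1 := Subtype.ext h
    simpa [z] using this)
  have hzz : (z : Q) * z = 1 := by
    rw [← Subgroup.coe_mul, ← map_mul, hz2, map_one, Subgroup.coe_one]
  have hinv : ∀ v ∈ V, (z : Q) * v * (z : Q)⁻¹ = v⁻¹ := by
    intro v hv
    have hzv : (z : Q) * v * (z : Q)⁻¹ ∈ V := S.normal.conj_mem v hv _
    have hzi : (z : Q)⁻¹ = z := inv_eq_of_mul_eq_one_left hzz
    have hfix : (z : Q) * (v * ((z : Q) * v * (z : Q)⁻¹)) = v * ((z : Q) * v * (z : Q)⁻¹) * z := by
      calc (z : Q) * (v * ((z : Q) * v * (z : Q)⁻¹))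
          = ((z : Q) * v * (z : Q)⁻¹) * ((z : Q) * (z : Q) * v * (z : Q)⁻¹) := by group
        _ = ((z : Q) * v * (z : Q)⁻¹) * v * z := by rw [hzz]; nth_rewrite 2 [hzi]; group
        _ = v * ((z : Q) * v * (z : Q)⁻¹) * z := by rw [S.comm _ hzv v hv]
    by_contra hne
    refine hz (fpf S hV hH z.2 (mul_mem hv hzv) (fun h => hne ?_) hfix)
    exact eq_inv_of_mul_eq_one_right h
  have hcomm : ∀ a ∈ H, a * (z : Q) = z * a := fun a ha => by
    have := hzc (e ⟨a, ha⟩)
    have h2 : (⟨a, ha⟩ : H) * z = z * ⟨a, ha⟩ := e.injective (by simpa [z] using this)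
    exact congrArg Subtype.val h2
  refine ⟨z, z.2, hz, hzz, hinv, fun x hx => ?_, hcomm⟩
  obtain ⟨u, hu, η, hη, rfl⟩ := S.exists_mul x
  have hηz := hcomm η hη
  have huz : (z : Q) * u = u * z := by
    calc (z : Q) * u = (z : Q) * (u * η) * η⁻¹ := by group
      _ = u * η * z * η⁻¹ := by rw [← hx]
      _ = u * z := by rw [mul_assoc u η, hηz]; group
  by_cases hu1 : u = 1
  · rw [hu1, one_mul]; exact hη
  · exact absurd (fpf S hV hH z.2 hu hu1 huz) hz

include hK in
theorem ker_pow {p : ℕ} [Fact p.Prime] (hp : p = 11) {k : G} (hk : k ∈ π.ker) : ¬ p ∣ orderOf k := by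
  subst hp
  exact regular_of_map hK (by rw [MonoidHom.mem_ker.1 hk, orderOf_one]; norm_num)

include hπ hK hKne in
/-- Consequences of having one class more than the quotient. -/
theorem tight
    (hle : Nat.card (RegClass 11 G) ≤ Nat.card (RegClass 11 Q) + 1) :
    (∀ a ∈ π.ker, ∀ b ∈ π.ker, a ≠ 1 → b ≠ 1 → IsConj a b) ∧
      ∀ x k : G, π x ≠ 1 → ¬ 11 ∣ orderOf (π x) → k ∈ π.ker → IsConj x (x * k) := by
  obtain ⟨k₁, hk₁, hk₁1⟩ := (Subgroup.bot_or_exists_ne_one π.ker).resolve_left hKne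
  let cls : ∀ x : G, ¬ 11 ∣ orderOf x → RegClass 11 G := fun x hx => ⟨ConjClasses.mk x, x, rfl, hx⟩
  have hne : ∀ {x y : G}, ConjClasses.mk x = ConjClasses.mk y → IsConj x y :=
    fun h => ConjClasses.mk_eq_mk_iff_isConj.1 h
  have h1reg : ¬ 11 ∣ orderOf (1 : G) := by rw [orderOf_one]; norm_num
  have himg : ∀ {x y : G} (c d : RegClass 11 G), c.1 = ConjClasses.mk x → d.1 = ConjClasses.mk y →
      π x = π y → regMap π c = regMap π d := fun c d hc hd h => by
    refine Subtype.ext ?_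
    change ConjClasses.map π c.1 = ConjClasses.map π d.1
    rw [hc, hd]
    exact congrArg ConjClasses.mk h
  have hsurj := regMap_surjective (p := 11) hπ
  have hk₁r := ker_pow hK rfl hk₁
  have hab : cls 1 h1reg ≠ cls k₁ hk₁r := by
    intro h
    exact hk₁1 (isConj_one_right.1 (hne (congrArg Subtype.val h)))
  have habi : regMap π (cls 1 h1reg) = regMap π (cls k₁ hk₁r) :=
    himg _ _ rfl rfl (by rw [map_one, MonoidHom.mem_ker.1 hk₁])
  have hA : ∀ b ∈ π.ker, b ≠ 1 → IsConj k₁ b := by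
    intro b hb hb1
    have hbr := ker_pow hK rfl hb
    rcases pair_eq hsurj hle hab habi (c := cls 1 h1reg) (d := cls b hbr)
      (by intro h; exact hb1 (isConj_one_right.1 (hne (congrArg Subtype.val h)))) (himg _ _ rfl rfl (by rw [map_one, MonoidHom.mem_ker.1 hb])) with
      ⟨h, -⟩ | ⟨-, h⟩
    · exact absurd (isConj_one_right.1 (hne (congrArg Subtype.val h))) hk₁1
    · exact (hne (congrArg Subtype.val h)).symm
  refine ⟨fun a ha b hb ha1 hb1 => (hA a ha ha1).symm.trans (hA b hb hb1), fun x k hx hxr hk => ?_⟩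
  have hπk : π (x * k) = π x := by rw [map_mul, MonoidHom.mem_ker.1 hk, mul_one]
  by_contra hcon
  rcases pair_eq hsurj hle hab habi (c := cls x (regular_of_map hK hxr))
    (d := cls (x * k) (regular_of_map hK (by rwa [hπk]))) (by intro h; exact hcon (hne (congrArg Subtype.val h))) (himg _ _ rfl rfl hπk.symm) with
    ⟨h, -⟩ | ⟨h, -⟩
  · refine hx ?_
    have := MonoidHom.map_isConj π (hne (congrArg Subtype.val h))
    rw [MonoidHom.mem_ker.1 hk₁] at this
    exact isConj_one_left.1 this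
  · refine hx ?_
    have := MonoidHom.map_isConj π (hne (congrArg Subtype.val h))
    rw [map_one] at this
    exact isConj_one_left.1 this

/-- A normal subgroup with one non-trivial class is elementary abelian. -/
theorem elementary {N : Subgroup G} [N.Normal] (hne : N ≠ ⊥)
    (hA : ∀ a ∈ N, ∀ b ∈ N, a ≠ 1 → b ≠ 1 → IsConj a b) :
    ∃ r, r.Prime ∧ (∃ m, 0 < m ∧ Nat.card N = r ^ m) ∧ (∀ a ∈ N, ∀ b ∈ N, a * b = b * a) ∧
      ∀ a ∈ N, a ^ r = 1 := by
  haveI : Nontrivial N := (Subgroup.nontrivial_iff_ne_bot N).2 hne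
  set r := (Nat.card N).minFac with hrdef
  have hr : r.Prime := Nat.minFac_prime (Finite.one_lt_card (α := N)).ne'
  haveI := Fact.mk hr
  obtain ⟨u, hu⟩ := exists_prime_orderOf_dvd_card' r (Nat.minFac_dvd (Nat.card N))
  have hu1 : (u : G) ≠ 1 := fun h => by
    rw [OneMemClass.coe_eq_one] at h
    rw [h, orderOf_one] at hu
    exact hr.ne_one hu.symm
  have hexp : ∀ a ∈ N, a ^ r = 1 := by
    intro a ha
    by_cases ha1 : a = 1
    · rw [ha1, one_pow]
    obtain ⟨c, hc⟩ := isConj_iff.1 (hA u u.2 a ha hu1 ha1)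
    have h : (u : G) ^ r = 1 := by rw [← SubmonoidClass.coe_pow, ← hu, pow_orderOf_eq_one]; rfl
    rw [← hc, conj_pow, h, mul_one, mul_inv_cancel]
  have hN : IsPGroup r N := fun a => ⟨1, Subtype.ext (by simpa using hexp a a.2)⟩
  obtain ⟨m, hm⟩ := IsPGroup.iff_card.1 hN
  haveI := hN.center_nontrivial
  obtain ⟨z, hz⟩ := exists_ne (1 : Subgroup.center N)
  have hz1 : ((z : N) : G) ≠ 1 := fun h => hz (Subtype.ext (Subtype.ext h))
  refine ⟨r, hr, ⟨m, ?_, hm⟩, fun a ha b hb => ?_, hexp⟩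
  · rcases Nat.eq_zero_or_pos m with h | h
    · rw [h, pow_zero] at hm
      exact absurd hm Finite.one_lt_card.ne'
    · exact h
  by_cases ha1 : a = 1
  · rw [ha1, one_mul, mul_one]
  obtain ⟨c, hc⟩ := isConj_iff.1 (hA _ (z : N).2 a ha hz1 ha1)
  have hb' : c⁻¹ * b * c ∈ N := by simpa using (inferInstance : N.Normal).conj_mem b hb c⁻¹
  have h2 := congrArg Subtype.val (Subgroup.mem_center_iff.1 z.2 ⟨_, hb'⟩)
  simp only [Subgroup.coe_mul] at h2
  rw [← hc]
  calc c * ((z : N) : G) * c⁻¹ * b = c * (((z : N) : G) * (c⁻¹ * b * c)) * c⁻¹ := by group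
    _ = c * (c⁻¹ * b * c * ((z : N) : G)) * c⁻¹ := by rw [h2]
    _ = b * (c * ((z : N) : G) * c⁻¹) := by group

include hπ S hV hH e in
/-- The preimage of the normal subgroup centralizes the kernel. -/
theorem preimage_centralizes {r m : ℕ} (hr : r.Prime)
    (hm : Nat.card π.ker = r ^ m) (hexp : ∀ a ∈ π.ker, a ^ r = 1)
    (hcom : ∀ a ∈ π.ker, ∀ b ∈ π.ker, a * b = b * a)
    (hF : ∀ x k : G, π x ≠ 1 → ¬ 11 ∣ orderOf (π x) → k ∈ π.ker → IsConj x (x * k))
    {x : G} (hx : π x ∈ V) {k : G} (hk : k ∈ π.ker) : x * k = k * x := by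
  classical
  obtain ⟨z, hzH, hz1, hzz, hzinv, hzC, hzcomm⟩ := exists_inverting S hV hH e
  have hzr : ¬ 11 ∣ orderOf z := S.not_dvd_orderOf hzH
  have hx11 : x ^ 11 ∈ π.ker := by rw [MonoidHom.mem_ker, map_pow, S.exponent _ hx]
  by_cases hr2 : r = 2
  · subst hr2
    obtain ⟨h, hh⟩ := hπ z
    have hfix : ∀ a ∈ π.ker, IsConj h (h * a) := fun a ha => hF h a (hh ▸ hz1) (hh ▸ hzr) ha
    set G₀ := H.comap π with hG₀
    have hhG₀ : h ∈ G₀ := by rw [hG₀, Subgroup.mem_comap, hh]; exact hzH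
    set C := G₀ ⊓ Subgroup.centralizer ({h} : Set G) with hC
    have hG₀card : Nat.card G₀ = 120 * Nat.card π.ker := by
      have h1 := (π.ker.subgroupOf G₀).index_mul_card
      have hkle : π.ker ≤ G₀ := π.ker_le_comap H
      rw [← h1, Nat.card_congr (Subgroup.subgroupOfEquivOfLe hkle).toEquiv]
      congr 1
      let q : G₀ →* H := π.subgroupComap H
      have hq : Function.Surjective q := fun a => by
        obtain ⟨g, hg⟩ := hπ a.1
        exact ⟨⟨g, show π g ∈ H by rw [hg]; exact a.2⟩, Subtype.ext hg⟩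
      have hqker : q.ker = π.ker.subgroupOf G₀ := by
        ext a
        rw [MonoidHom.mem_ker, Subgroup.mem_subgroupOf, MonoidHom.mem_ker, ← OneMemClass.coe_eq_one]
        rfl
      rw [← hqker, Subgroup.index_ker, MonoidHom.range_eq_top.2 hq, Subgroup.card_top, hH]
    have hCcard : Nat.card C = 120 := by
      let h₀ : G₀ := ⟨h, hhG₀⟩
      have hcent : Nat.card (Subgroup.centralizer ({h₀} : Set G₀)) = Nat.card C := by
        refine Nat.card_congr ⟨fun a => ⟨a.1.1, Subgroup.mem_inf.2 ⟨a.1.2, ?_⟩⟩,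
          fun a => ⟨⟨a.1, (Subgroup.mem_inf.1 a.2).1⟩, ?_⟩, fun a => rfl, fun a => rfl⟩
        · rw [Subgroup.mem_centralizer_singleton_iff]
          exact congrArg Subtype.val (Subgroup.mem_centralizer_singleton_iff.1 a.2)
        · rw [Subgroup.mem_centralizer_singleton_iff]
          exact Subtype.ext (Subgroup.mem_centralizer_singleton_iff.1 (Subgroup.mem_inf.1 a.2).2)
      have horb : Nat.card {y : G₀ // IsConj h₀ y} = Nat.card π.ker := by
        refine Nat.card_congr (Equiv.ofBijective (fun y => (⟨h⁻¹ * (y.1 : G), ?_⟩ : π.ker)) ⟨?_, ?_⟩)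
        · obtain ⟨g, hg⟩ := isConj_iff.1 y.2
          rw [MonoidHom.mem_ker, map_mul, ← hg, Subgroup.coe_mul, Subgroup.coe_mul, Subgroup.coe_inv,
            map_mul, map_mul, map_inv, map_inv, hh]
          have hgc : (π g : Q) * z = z * π g := by
            have hgH : π g ∈ H := g.2
            exact hzcomm _ hgH
          rw [hgc]
          group
        · intro y y' hy
          exact Subtype.ext (Subtype.ext (mul_left_cancel (congrArg Subtype.val hy)))
        · rintro ⟨a, ha⟩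
          obtain ⟨g, hg⟩ := isConj_iff.1 (hfix a ha)
          have hgH : π g ∈ H := by
            refine hzC _ ?_
            have := congrArg π hg
            rw [map_mul, map_mul, map_mul, map_inv, hh, MonoidHom.mem_ker.1 ha, mul_one,
              mul_inv_eq_iff_eq_mul] at this
            exact this
          refine ⟨⟨⟨h * a, ?_⟩, isConj_iff.2 ⟨⟨g, hgH⟩, Subtype.ext hg⟩⟩, Subtype.ext (by simp)⟩
          exact mul_mem hhG₀ (π.ker_le_comap H ha)
      rw [card_isConj] at horb
      have h1 := (Subgroup.centralizer ({h₀} : Set G₀)).index_mul_card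
      rw [horb, hcent, hG₀card, mul_comm] at h1
      exact Nat.eq_of_mul_eq_mul_right Nat.card_pos h1
    set D := π.ker ⊓ Subgroup.centralizer ({h} : Set G) with hD
    obtain ⟨d, -, hd⟩ := (Nat.dvd_prime_pow hr).1
      (hm ▸ Subgroup.card_dvd_of_le (inf_le_left : D ≤ π.ker))
    have hDsmall : Nat.card D ≤ 4 := by
      set P := C ⊓ (Subgroup.zpowers z).comap π with hP
      have hDP : D ≤ P := fun a ha => by
        obtain ⟨ha1, ha2⟩ := Subgroup.mem_inf.1 ha
        exact Subgroup.mem_inf.2 ⟨Subgroup.mem_inf.2 ⟨π.ker_le_comap H ha1, ha2⟩,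
          by rw [Subgroup.mem_comap, MonoidHom.mem_ker.1 ha1]; exact one_mem _⟩
      have h1 : Nat.card D * 2 = Nat.card P := by
        let q : P →* Subgroup.zpowers z := (π.comp P.subtype).codRestrict _ fun a => (Subgroup.mem_inf.1 a.2).2
        have hhP : h ∈ P := Subgroup.mem_inf.2 ⟨Subgroup.mem_inf.2 ⟨hhG₀,
          Subgroup.mem_centralizer_singleton_iff.2 rfl⟩, by rw [Subgroup.mem_comap, hh]; exact Subgroup.mem_zpowers z⟩
        have hq : Function.Surjective q := by
          rintro ⟨w, hw⟩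
          obtain ⟨i, rfl⟩ := Subgroup.mem_zpowers_iff.1 hw
          exact ⟨⟨h, hhP⟩ ^ i, Subtype.ext (by rw [map_zpow, SubgroupClass.coe_zpow]; exact congrArg (· ^ i) hh)⟩
        have h2 := q.ker.card_mul_index
        rw [Subgroup.index_ker, MonoidHom.range_eq_top.2 hq, Subgroup.card_top, Nat.card_zpowers,
          orderOf_eq_prime (by rw [pow_two]; exact hzz) hz1] at h2
        rw [← h2]
        congr 1
        refine Nat.card_congr ⟨fun a => ⟨⟨a.1, hDP a.2⟩, ?_⟩, fun a => ⟨a.1.1, Subgroup.mem_inf.2 ⟨?_, ?_⟩⟩,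
          fun a => rfl, fun a => rfl⟩
        · exact Subtype.ext (MonoidHom.mem_ker.1 (Subgroup.mem_inf.1 a.2).1)
        · exact congrArg Subtype.val (MonoidHom.mem_ker.1 a.2)
        · exact (Subgroup.mem_inf.1 (Subgroup.mem_inf.1 a.1.2).1).2
      have h2 : Nat.card D * 2 ∣ 120 := by
        rw [h1, ← hCcard]
        exact Subgroup.card_dvd_of_le inf_le_left
      rw [hd] at h2 ⊢
      by_contra hgt
      push Not at hgt
      have h3 : 3 ≤ d := by
        by_contra hlt
        have := Nat.pow_le_pow_right (show 0 < 2 by norm_num) (show d ≤ 2 by omega)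
        omega
      have : 16 ∣ 120 := (Nat.mul_dvd_mul_right (pow_dvd_pow 2 h3) 2).trans h2
      omega
    have hKsmall : Nat.card π.ker ≤ 16 := by
      letI : CommGroup π.ker :=
        { (inferInstance : Group π.ker) with mul_comm := fun a b => Subtype.ext (hcom a a.2 b b.2) }
      let f : π.ker →* π.ker := (MulAut.conjNormal (H := π.ker) h).toMonoidHom * MonoidHom.id _
      have hf : ∀ a : π.ker, ((f a : π.ker) : G) = h * (a : G) * h⁻¹ * a := fun a => by simp [f]
      have hinv : ∀ a ∈ π.ker, a⁻¹ = a := fun a ha =>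
        inv_eq_of_mul_eq_one_left (by rw [← pow_two]; exact hexp a ha)
      have hh2 : h * h ∈ π.ker := by rw [MonoidHom.mem_ker, map_mul, hh, hzz]
      have hrange : f.range.map π.ker.subtype ≤ D := by
        rintro _ ⟨_, ⟨a, rfl⟩, rfl⟩
        refine Subgroup.mem_inf.2 ⟨(f a).2, Subgroup.mem_centralizer_singleton_iff.2 ?_⟩
        have h1 : h * h * (a : G) * (h * h)⁻¹ = a := by
          rw [hcom _ hh2 _ a.2, mul_inv_cancel_right]
        have hca : h * (a : G) * h⁻¹ ∈ π.ker := (inferInstance : π.ker.Normal).conj_mem _ a.2 h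
        change (f a : G) * h = h * (f a : G)
        rw [hf]
        calc h * (a : G) * h⁻¹ * a * h = (a : G) * (h * (a : G) * h⁻¹) * h := by rw [hcom _ hca _ a.2]
          _ = h * h * (a : G) * (h * h)⁻¹ * (h * (a : G) * h⁻¹) * h := by rw [h1]
          _ = h * (h * (a : G) * h⁻¹ * a) := by group
      have hker : f.ker.map π.ker.subtype ≤ D := by
        rintro _ ⟨a, ha, rfl⟩
        refine Subgroup.mem_inf.2 ⟨a.2, Subgroup.mem_centralizer_singleton_iff.2 ?_⟩
        have h1 := congrArg Subtype.val (MonoidHom.mem_ker.1 ha)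
        rw [hf, Subgroup.coe_one, mul_eq_one_iff_eq_inv, hinv _ a.2, mul_inv_eq_iff_eq_mul] at h1
        exact h1.symm
      have h1 := f.ker.card_mul_index
      rw [Subgroup.index_ker] at h1
      have h2 := Subgroup.card_le_of_le hrange
      have h3 := Subgroup.card_le_of_le hker
      rw [Subgroup.card_subtype] at h2 h3
      rw [← h1]
      exact (Nat.mul_le_mul (h3.trans hDsmall) (h2.trans hDsmall)).trans (by norm_num)
    set σ : MulAut π.ker := MulAut.conjNormal (H := π.ker) x with hσ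
    have hσ11 : σ ^ 11 = 1 := by
      rw [hσ, ← map_pow]
      ext a
      rw [MulAut.conjNormal_apply, hcom _ hx11 _ a.2, mul_inv_cancel_right]
      rfl
    let Sg := Subgroup.zpowers σ
    have hP : IsPGroup 11 Sg := IsPGroup.of_card (n := (orderOf σ).factorization 11) (by
      rw [Nat.card_zpowers]
      rcases (Nat.dvd_prime (by norm_num)).1 (orderOf_dvd_of_pow_eq_one hσ11) with h | h <;>
        rw [h] <;> simp [Nat.Prime.factorization_self (show Nat.Prime 11 by norm_num)])
    let F : Subgroup π.ker := MonoidHom.eqLocus σ.toMonoidHom (MonoidHom.id _)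
    have hmod := hP.card_modEq_card_fixedPoints π.ker
    have hFeq : Nat.card (MulAction.fixedPoints Sg π.ker) = Nat.card F := by
      refine Nat.card_congr (Equiv.subtypeEquivRight fun a => ⟨fun h => ?_, fun h g => ?_⟩)
      · exact h ⟨σ, Subgroup.mem_zpowers σ⟩
      · have hsub : Sg ≤ MulAction.stabilizer (MulAut π.ker) a :=
          Subgroup.zpowers_le.2 h
        exact hsub g.2
    rw [hFeq, hm] at hmod
    obtain ⟨i, hi, hiF⟩ := (Nat.dvd_prime_pow hr).1 (hm ▸ F.card_subgroup_dvd_card)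
    rw [hm] at hKsmall
    have hm4 : m ≤ 4 := by
      by_contra hgt
      have := Nat.pow_le_pow_right (show 0 < 2 by norm_num) (show 5 ≤ m by omega)
      omega
    rw [hiF] at hmod
    have htop : F = ⊤ := by
      refine Subgroup.eq_top_of_card_eq F ?_
      rw [hiF, hm]
      unfold Nat.ModEq at hmod
      interval_cases m <;> interval_cases i <;> simp_all
    have hfixk : (⟨k, hk⟩ : π.ker) ∈ F := htop ▸ Subgroup.mem_top _
    have h1 := congrArg Subtype.val hfixk
    simp only [MulEquiv.coe_toMonoidHom, MonoidHom.id_apply, hσ, MulAut.conjNormal_apply] at h1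
    exact mul_inv_eq_iff_eq_mul.1 h1
  · obtain ⟨g, hg⟩ := hπ z
    have hrodd : Odd r := hr.odd_of_ne_two hr2
    set h := g ^ r with hhdef
    have hh : π h = z := by
      obtain ⟨j, hj⟩ := hrodd
      rw [hhdef, map_pow, hg, hj, pow_succ, pow_mul, pow_two, hzz, one_pow, one_mul]
    have hh2 : h * h = 1 := by
      have : g ^ 2 ∈ π.ker := by rw [MonoidHom.mem_ker, map_pow, hg, pow_two, hzz]
      rw [hhdef, ← pow_add, ← two_mul, pow_mul]
      exact hexp _ this
    have hinv : ∀ a ∈ π.ker, h * a * h⁻¹ = a⁻¹ := by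
      intro a ha
      have hhi : h⁻¹ = h := inv_eq_of_mul_eq_one_left hh2
      have hca : h * a * h⁻¹ ∈ π.ker := (inferInstance : π.ker.Normal).conj_mem a ha h
      set b := a * (h * a * h⁻¹) with hb
      have hbK : b ∈ π.ker := mul_mem ha hca
      obtain ⟨c, hc⟩ := isConj_iff.1 (hF h b (hh ▸ hz1) (hh ▸ hzr) hbK)
      have hb2 : (h * b) * (h * b) = 1 := by
        rw [← hc]
        calc c * h * c⁻¹ * (c * h * c⁻¹) = c * (h * h) * c⁻¹ := by group
          _ = 1 := by rw [hh2]; group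
      have hbh : h * b * h⁻¹ = b := by
        calc h * b * h⁻¹ = h * a * h⁻¹ * (h * h * a * (h * h)⁻¹) := by rw [hb]; group
          _ = h * a * h⁻¹ * a := by rw [hh2]; group
          _ = b := by rw [hb, hcom _ hca _ ha]
      have hbb : b * b = 1 := by
        calc b * b = h * b * h⁻¹ * b := by rw [hbh]
          _ = (h * b) * (h * b) := by rw [hhi]; group
          _ = 1 := hb2
      have hb1 : b = 1 := by
        obtain ⟨j, hj⟩ := hrodd
        have := hexp b hbK
        rwa [hj, pow_succ, pow_mul, pow_two, hbb, one_pow, one_mul] at this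
      exact eq_inv_of_mul_eq_one_right hb1
    set c := x * h * x * h⁻¹ with hc
    have hcK : c ∈ π.ker := by
      have := hzinv _ hx
      rw [MonoidHom.mem_ker, hc, map_mul, map_mul, map_mul, map_inv, hh,
        mul_assoc, mul_assoc, ← mul_assoc z, this, mul_inv_cancel]
    have hxh : h * x * h⁻¹ = x⁻¹ * c := by rw [hc]; group
    have hsq : x * x * k = k * (x * x) := by
      have hkinv : h⁻¹ * k * h = k⁻¹ := by
        have hhi : h⁻¹ = h := inv_eq_of_mul_eq_one_left hh2
        rw [hhi]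
        conv_lhs => arg 2; rw [← hhi]
        exact hinv k hk
      have hxk : x * k * x⁻¹ ∈ π.ker := (inferInstance : π.ker.Normal).conj_mem k hk x
      have h2 : x * k * x⁻¹ = x⁻¹ * k * x := by
        calc x * k * x⁻¹ = h * (x * k * x⁻¹)⁻¹ * h⁻¹ := by rw [hinv _ (inv_mem hxk), inv_inv]
          _ = h * x * h⁻¹ * (h * k⁻¹ * h⁻¹) * (h * x * h⁻¹)⁻¹ := by group
          _ = x⁻¹ * c * k * (x⁻¹ * c)⁻¹ := by rw [hxh, hinv _ (inv_mem hk), inv_inv]
          _ = x⁻¹ * (c * k * c⁻¹) * x := by group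
          _ = x⁻¹ * k * x := by rw [hcom c hcK k hk, mul_inv_cancel_right]
      calc x * x * k = x * (x * k * x⁻¹) * x := by group
        _ = x * (x⁻¹ * k * x) * x := by rw [h2]
        _ = k * (x * x) := by group
    have h11 : x ^ 11 * k = k * x ^ 11 := hcom _ hx11 _ hk
    have hsq' : Commute (x * x) k := hsq
    have := ((hsq'.pow_left 6).mul_left ((show Commute (x ^ 11) k from h11).inv_left))
    rw [← pow_two, ← pow_mul, show x ^ (2 * 6) * (x ^ 11)⁻¹ = x by group] at this
    exact this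

/-- The degree equation of the one extra character. -/
theorem degree_arith {f q : ℕ} (hq : 2 ≤ q) (hf : f ∣ 120 * q) (h : f ^ 2 + 120 = 120 * q) :
    q = 31 ∨ q = 121 := by
  obtain ⟨x, rfl⟩ : ∃ x, q = x + 1 := ⟨q - 1, by omega⟩
  have hfx : f ^ 2 = 120 * x := by omega
  obtain ⟨g, rfl⟩ : 2 ∣ f := Nat.prime_two.dvd_of_dvd_pow (n := 2) ⟨60 * x, by rw [hfx]; ring⟩
  have hg : g ^ 2 = 30 * x := by
    have : 4 * g ^ 2 = 4 * (30 * x) := by rw [show 4 * g ^ 2 = (2 * g) ^ 2 by ring, hfx]; ring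
    omega
  have h2 : 2 ∣ g := Nat.prime_two.dvd_of_dvd_pow (n := 2) ⟨15 * x, by rw [hg]; ring⟩
  have h3 : 3 ∣ g := Nat.prime_three.dvd_of_dvd_pow (n := 2) ⟨10 * x, by rw [hg]; ring⟩
  have h5 : 5 ∣ g := Nat.prime_five.dvd_of_dvd_pow (n := 2) ⟨6 * x, by rw [hg]; ring⟩
  obtain ⟨a, rfl⟩ : 30 ∣ g := (show 30 = 2 * 3 * 5 by norm_num) ▸
    Nat.Coprime.mul_dvd_of_dvd_of_dvd (by norm_num)
      (Nat.Coprime.mul_dvd_of_dvd_of_dvd (by norm_num) h2 h3) h5
  have hx : x = 30 * a ^ 2 := by
    have : 30 * x = 30 * (30 * a ^ 2) := by rw [← hg]; ring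
    omega
  have ha : a ∣ 2 * (x + 1) := by
    have h' : 60 * a ∣ 60 * (2 * (x + 1)) := by
      have e1 : 2 * (30 * a) = 60 * a := by ring
      have e2 : 120 * (x + 1) = 60 * (2 * (x + 1)) := by ring
      rwa [e1, e2] at hf
    exact (Nat.mul_dvd_mul_iff_left (by norm_num)).1 h'
  have ha2 : a ∣ 2 := by
    have h1 : a ∣ 2 * x := ⟨60 * a, by rw [hx]; ring⟩
    rw [mul_add, mul_one] at ha
    exact (Nat.dvd_add_right h1).1 ha
  rcases (Nat.dvd_prime Nat.prime_two).1 ha2 with rfl | rfl <;> omega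

include hπ hK hKne S hV hH e in
/-- At least eleven `11`-regular classes. -/
theorem eleven_le (hk : Nat.card (ConjClasses H) = 9) : 11 ≤ Nat.card (RegClass 11 G) := by
  classical
  by_contra hcon
  push Not at hcon
  have hQ : Nat.card (RegClass 11 Q) = 9 := S.card_regClass.trans hk
  obtain ⟨hA, hF⟩ := tight hπ hK hKne (by omega)
  obtain ⟨r, hr, ⟨m, hm0, hm⟩, hcom, hexp⟩ := elementary (N := π.ker) hKne hA
  have hcent : ∀ {x k : G}, π x ∈ V → k ∈ π.ker → x * k = k * x := fun hx hk' =>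
    preimage_centralizes hπ S hV hH e hr hm hexp hcom hF hx hk'
  set G₀ := H.comap π with hG₀
  let q : G₀ →* H := π.subgroupComap H
  have hq : Function.Surjective q := fun a => by
    obtain ⟨g, hg⟩ := hπ a.1
    exact ⟨⟨g, show π g ∈ H by rw [hg]; exact a.2⟩, Subtype.ext hg⟩
  have hG₀card : Nat.card G₀ = 120 * Nat.card π.ker := by
    have h1 := q.ker.card_mul_index
    rw [Subgroup.index_ker, MonoidHom.range_eq_top.2 hq, Subgroup.card_top, hH] at h1
    rw [← h1, mul_comm]
    congr 1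
    refine Nat.card_congr ⟨fun a => ⟨a.1.1, MonoidHom.mem_ker.2 (congrArg Subtype.val (MonoidHom.mem_ker.1 a.2))⟩,
      fun a => ⟨⟨a.1, π.ker_le_comap H a.2⟩, Subtype.ext (MonoidHom.mem_ker.1 a.2)⟩, fun a => rfl, fun a => rfl⟩
  -- classes of the preimage of the complement
  let Φ : ConjClasses G₀ → RegClass 11 G := fun c => ⟨ConjClasses.map G₀.subtype c, by
    obtain ⟨a, rfl⟩ := ConjClasses.mk_surjective c
    exact ⟨a, rfl, regular_of_map hK (S.not_dvd_orderOf (show π (a : G) ∈ H from a.2))⟩⟩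
  have hΦ : Function.Injective Φ := by
    intro c d hcd
    obtain ⟨a, rfl⟩ := ConjClasses.mk_surjective c
    obtain ⟨b, rfl⟩ := ConjClasses.mk_surjective d
    obtain ⟨g, hg⟩ := isConj_iff.1 (ConjClasses.mk_eq_mk_iff_isConj.1 (congrArg Subtype.val hcd))
    simp only [Subgroup.coe_subtype] at hg
    obtain ⟨u, hu, η, hη, huη⟩ := S.exists_mul (π g)
    obtain ⟨w, hw⟩ := hπ u
    set g₀ := w⁻¹ * g with hg₀
    have hg₀H : g₀ ∈ G₀ := by
      rw [hG₀, Subgroup.mem_comap, hg₀, map_mul, map_inv, hw, ← huη, inv_mul_cancel_left]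
      exact hη
    set a' := g₀ * (a : G) * g₀⁻¹ with ha'
    have ha'H : π a' ∈ H := show a' ∈ G₀ from mul_mem (mul_mem hg₀H a.2) (inv_mem hg₀H)
    have hb : (b : G) = w * a' * w⁻¹ := by rw [← hg, ha', hg₀]; group
    have hbH : π (b : G) ∈ H := b.2
    have hpb : π (b : G) = u * π a' * u⁻¹ := by rw [hb, map_mul, map_mul, map_inv, hw]
    have hV' : π (b : G) * (π a')⁻¹ ∈ V := by
      have hmem := mul_mem hu (S.normal.conj_mem _ (inv_mem hu) (π a'))
      rw [hpb]
      convert hmem using 1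
      group
    have h1 := mul_inv_eq_one.1 (S.eq_one hV' (mul_mem hbH (inv_mem ha'H)))
    rw [hpb, mul_inv_eq_iff_eq_mul] at h1
    refine ConjClasses.mk_eq_mk_iff_isConj.2 ?_
    by_cases ha1 : π a' = 1
    · refine isConj_iff.2 ⟨⟨g₀, hg₀H⟩, Subtype.ext ?_⟩
      change g₀ * (a : G) * g₀⁻¹ = b
      rw [hb, hcent (hw ▸ hu) (MonoidHom.mem_ker.2 ha1), mul_inv_cancel_right]
    · have hu1 : u = 1 := by
        by_contra hne
        exact ha1 (fpf S hV hH ha'H hu hne h1.symm)
      have hwG : w ∈ G₀ := by rw [hG₀, Subgroup.mem_comap, hw, hu1]; exact one_mem _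
      refine isConj_iff.2 ⟨⟨g, ?_⟩, Subtype.ext hg⟩
      have := mul_mem hwG hg₀H
      rwa [hg₀, mul_inv_cancel_left] at this
  have hk0 : Nat.card (ConjClasses G₀) ≤ 10 :=
    (Nat.card_le_card_of_injective Φ hΦ).trans (by omega)
  -- degrees
  haveI : Fintype G₀ := Fintype.ofFinite _
  haveI : Fintype H := Fintype.ofFinite _
  haveI : Fintype (IrrCharacter G₀) := Fintype.ofFinite _
  haveI : Fintype (IrrCharacter H) := Fintype.ofFinite _
  let ι : IrrCharacter H → IrrCharacter G₀ := fun χ =>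
    ⟨fun g => (χ : H → ℂ) (q g), isIrrCharacter_comp χ.2 hq⟩
  have hι : Function.Injective ι := fun χ ψ h => Subtype.ext (funext fun a => by
    obtain ⟨g, rfl⟩ := hq a
    exact congrFun (congrArg Subtype.val h) g)
  choose deg hdeg0 hdegdvd hdeg using fun χ : IrrCharacter G₀ => IsIrrCharacter.exists_degree_dvd χ.2
  have hsum : ((∑ χ : IrrCharacter G₀, deg χ ^ 2 : ℕ) : ℂ) = (120 * Nat.card π.ker : ℕ) := by
    have h1 := sum_degree_mul (G := G₀) 1
    rw [if_pos rfl, hG₀card] at h1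
    rw [← h1, Nat.cast_sum]
    exact Finset.sum_congr rfl fun χ _ => by rw [hdeg, Nat.cast_pow, sq]
  set T := (Finset.univ : Finset (IrrCharacter H)).map ⟨ι, hι⟩ with hT
  have hsumT : ((∑ χ ∈ T, deg χ ^ 2 : ℕ) : ℂ) = (120 : ℕ) := by
    have h1 := sum_degree_mul (G := H) 1
    rw [if_pos rfl, hH] at h1
    rw [← h1, Nat.cast_sum, hT, Finset.sum_map]
    refine Finset.sum_congr rfl fun χ _ => ?_
    rw [Nat.cast_pow, ← hdeg, sq]
    change (χ : H → ℂ) (q 1) * (χ : H → ℂ) (q 1) = _
    rw [map_one]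
  rw [Nat.cast_inj] at hsum hsumT
  have hcardT : T.card = 9 := by
    rw [hT, Finset.card_map, Finset.card_univ, ← Nat.card_eq_fintype_card, card_irrCharacter, hk]
  have hKcard : 2 ≤ Nat.card π.ker := by
    haveI : Nontrivial π.ker := (Subgroup.nontrivial_iff_ne_bot _).2 hKne
    exact Finite.one_lt_card
  rw [← Finset.sum_add_sum_compl T, hsumT] at hsum
  have hc : (Tᶜ).card ≤ 1 := by
    rw [Finset.card_compl, hcardT, ← Nat.card_eq_fintype_card, card_irrCharacter]
    omega
  obtain ⟨χ, hχ⟩ : ∃ χ, Tᶜ = {χ} := by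
    refine Finset.card_eq_one.1 (le_antisymm hc (Finset.card_pos.2 ?_))
    by_contra hne
    rw [Finset.not_nonempty_iff_eq_empty] at hne
    rw [hne, Finset.sum_empty] at hsum
    omega
  rw [hχ, Finset.sum_singleton] at hsum
  rcases degree_arith hKcard (hG₀card ▸ hdegdvd χ) (by omega) with h31 | h121
  swap
  · exact hK (h121 ▸ (by norm_num : 11 ∣ 121))
  -- the kernel would be central
  haveI : Fact (Nat.Prime 31) := ⟨by norm_num⟩
  haveI : IsCyclic π.ker := isCyclic_of_prime_card h31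
  let φ : G₀ →* MulAut π.ker := (MulAut.conjNormal (H := π.ker)).comp G₀.subtype
  have hφc : ∀ a b : MulAut π.ker, a * b = b * a := by
    intro a b
    obtain ⟨i, hi⟩ := MonoidHom.map_cyclic a.toMonoidHom
    obtain ⟨j, hj⟩ := MonoidHom.map_cyclic b.toMonoidHom
    refine MulEquiv.ext fun y => ?_
    change a (b y) = b (a y)
    simp only [MulEquiv.coe_toMonoidHom] at hi hj
    rw [hi, hj, hi, hj, ← zpow_mul, ← zpow_mul, mul_comm i j]
  have hperf : (commutator G₀).map q = ⊤ := by
    have hH' : commutator H = ⊤ := by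
      rw [commutator_def]
      refine Subgroup.map_injective (f := e.toMonoidHom) e.injective ?_
      rw [Subgroup.map_commutator, Subgroup.map_top_of_surjective e.toMonoidHom e.surjective,
        ← commutator_def, sl_two_five_facts.1]
    rw [commutator_def, Subgroup.map_commutator, Subgroup.map_top_of_surjective q hq, ← commutator_def, hH']
  have hφker : commutator G₀ ≤ φ.ker := by
    rw [commutator_def, Subgroup.commutator_le]
    intro a _ b _
    rw [MonoidHom.mem_ker, map_commutatorElement, commutatorElement_eq_one_iff_mul_comm]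
    exact hφc _ _
  have hcentral : ∀ g : G, ∀ k ∈ π.ker, g * k = k * g := by
    intro g k hk'
    obtain ⟨u, hu, η, hη, huη⟩ := S.exists_mul (π g)
    obtain ⟨w, hw⟩ := hπ u
    set g₀ := w⁻¹ * g with hg₀
    have hg₀H : g₀ ∈ G₀ := by
      rw [hG₀, Subgroup.mem_comap, hg₀, map_mul, map_inv, hw, ← huη, inv_mul_cancel_left]
      exact hη
    obtain ⟨c, hc, hcq⟩ := Subgroup.mem_map.1
      (show q ⟨g₀, hg₀H⟩ ∈ (commutator G₀).map q from hperf ▸ Subgroup.mem_top _)
    have hck : (c : G) * k = k * c := by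
      have := congrArg (fun σ : MulAut π.ker => ((σ ⟨k, hk'⟩ : π.ker) : G)) (MonoidHom.mem_ker.1 (hφker hc))
      simp only [φ, MonoidHom.comp_apply, Subgroup.coe_subtype, MulAut.conjNormal_apply, MulAut.one_apply] at this
      exact mul_inv_eq_iff_eq_mul.1 this
    have hd : (c : G)⁻¹ * g₀ ∈ π.ker := by
      have : π (c : G) = π g₀ := congrArg Subtype.val hcq
      rw [MonoidHom.mem_ker, map_mul, map_inv, this, inv_mul_cancel]
    have hwk := hcent (x := w) (k := k) (hw ▸ hu) hk'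
    have : g = w * ((c : G) * ((c : G)⁻¹ * g₀)) := by rw [hg₀]; group
    rw [this]
    have hdk := hcom _ hd _ hk'
    exact ((show Commute w k from hwk).mul_left
      ((show Commute (c : G) k from hck).mul_left (show Commute ((c : G)⁻¹ * g₀) k from hdk))).eq
  obtain ⟨a, ha, ha1⟩ := (Subgroup.bot_or_exists_ne_one π.ker).resolve_left hKne
  have ha31 : orderOf a = 31 := by
    refine orderOf_eq_prime ?_ ha1
    have := congrArg Subtype.val (pow_card_eq_one' (x := (⟨a, ha⟩ : π.ker)))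
    rwa [h31] at this
  have haa : a * a ≠ 1 := fun h => by
    have := orderOf_dvd_of_pow_eq_one (show a ^ 2 = 1 by rw [pow_two]; exact h)
    rw [ha31] at this
    norm_num at this
  obtain ⟨g, hg⟩ := isConj_iff.1 (hA a ha (a * a) (mul_mem ha ha) ha1 haa)
  rw [hcentral g a ha, mul_inv_cancel_right] at hg
  exact ha1 (mul_eq_left.1 hg.symm)

end

end CfsgLib.CoprimeTransitive
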