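import Cfsg.Agent.Lib.CoprimeTransitive.Lift
import Cfsg.Agent.Lib.CoprimeTransitive.ClassCount
import Cfsg.Agent.Lib.CoprimeTransitive.Arith
import Cfsg.Agent.Lib.TransitiveLinear.Normal
import Cfsg.Agent.Lib.OrderDegrees.LinearFeit

/-!
# Transitive linear groups of order prime to `p`: at least `p` classes in degree three or more
-/

set_option autoImplicit false
set_option linter.unusedSectionVars false
set_option linter.style.haveILetI false

namespace CfsgLib.CoprimeTransitive

open CfsgLib.PermGroups.Regular CfsgLib.TransitiveLinear CfsgLib.Zsigmondy CfsgLib.OrderDegrees.Linear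
open CfsgLib.CharTheory (isIrreducible_of_equiv topEquiv)
open Module

variable {p n : ℕ} [hpf : Fact p.Prime]

/-- The space of row vectors. -/
abbrev Space (p n : ℕ) := Fin n → ZMod p

variable {H : Subgroup (Space p n ≃ₗ[ZMod p] Space p n)}

theorem finite_group : Finite H := by
  haveI : Finite (Module.End (ZMod p) (Space p n)) :=
    Finite.of_injective (fun f : Module.End (ZMod p) (Space p n) => (f : Space p n → Space p n))
      DFunLike.coe_injective
  exact Finite.of_injective (endHom H) (endHom_injective H)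

theorem card_space : Nat.card (Space p n) = p ^ n := by simp

/-- The fixed points of a prime power element in an invariant subspace. -/
theorem card_modEq_fixed {r : ℕ} [Fact r.Prime] {y : H} (hy : ∃ k, y ^ r ^ k = 1)
    (W : Submodule (ZMod p) (Space p n)) (hW : InvUnder (Subgroup.zpowers y) W) :
    Nat.card W ≡ Nat.card {w : W // ((y : H) : Space p n ≃ₗ[ZMod p] Space p n) w.1 = w.1} [MOD r] := by
  haveI := finite_group (H := H)
  let _ : MulAction (Subgroup.zpowers y) W :=
    { smul := fun g w => ⟨((g : H) : Space p n ≃ₗ[ZMod p] Space p n) w.1, hW g g.2 w.1 w.2⟩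
      one_smul := fun w => Subtype.ext rfl
      mul_smul := fun a b w => Subtype.ext rfl }
  have hP : IsPGroup r (Subgroup.zpowers y) := CfsgLib.OrderDegrees.Linear.isPGroup_zpowers hy
  refine (hP.card_modEq_card_fixedPoints W).trans ?_
  rw [Nat.card_congr (Equiv.subtypeEquivRight (p := fun w => w ∈ MulAction.fixedPoints (Subgroup.zpowers y) W)
    (q := fun w : W => ((y : H) : Space p n ≃ₗ[ZMod p] Space p n) w.1 = w.1) fun w => ⟨fun h => ?_, fun h g => ?_⟩)]
  · exact congrArg Subtype.val (h ⟨y, Subgroup.mem_zpowers y⟩)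
  · refine Subtype.ext ?_
    show ((g : H) : Space p n ≃ₗ[ZMod p] Space p n) w.1 = w.1
    have hsub : Subgroup.zpowers y ≤ ((MulAction.stabilizer (Space p n ≃ₗ[ZMod p] Space p n)
        (w.1 : Space p n)).comap H.subtype) := Subgroup.zpowers_le.2 h
    exact hsub g.2

variable (hn : 0 < n)
include hn

theorem nontrivial_space : Nontrivial (Space p n) := by
  haveI : Nonempty (Fin n) := ⟨⟨0, hn⟩⟩
  infer_instance

/-- An element of primitive prime power order has no fixed vector. -/
theorem fpf_of_ppd {r : ℕ} (hr : IsPpd p n r) {y : H} (hy : ∃ k, y ^ r ^ k = 1) (hy1 : y ≠ 1)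
    {v : Space p n} (hv : ((y : H) : Space p n ≃ₗ[ZMod p] Space p n) v = v) : v = 0 := by
  haveI := Fact.mk hr.1
  let W : Submodule (ZMod p) (Space p n) :=
    LinearMap.eqLocus (((y : H) : Space p n ≃ₗ[ZMod p] Space p n) : Space p n →ₗ[ZMod p] Space p n)
      LinearMap.id
  have h := card_modEq_fixed hy ⊤ (fun _ _ _ _ => Submodule.mem_top)
  have e1 : Nat.card (⊤ : Submodule (ZMod p) (Space p n)) = p ^ n := by
    rw [Nat.card_congr (Submodule.topEquiv.toEquiv), card_space]
  have e2 : Nat.card {w : (⊤ : Submodule (ZMod p) (Space p n)) //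
      ((y : H) : Space p n ≃ₗ[ZMod p] Space p n) w.1 = w.1} = p ^ finrank (ZMod p) W := by
    rw [Nat.card_congr (β := W) ⟨fun w => ⟨w.1.1, w.2⟩, fun w => ⟨⟨w.1, Submodule.mem_top⟩, w.2⟩,
      fun _ => rfl, fun _ => rfl⟩, Module.natCard_eq_pow_finrank (K := ZMod p), Nat.card_zmod]
  rw [e1, e2] at h
  have hwn : finrank (ZMod p) W ≤ n := by
    simpa using Submodule.finrank_le W
  have hp1 := hpf.out.one_lt
  have hdvd : r ∣ p ^ (n - finrank (ZMod p) W) - 1 := by
    have h1 : r ∣ p ^ finrank (ZMod p) W * (p ^ (n - finrank (ZMod p) W) - 1) := by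
      rw [Nat.mul_sub, mul_one, ← pow_add, Nat.add_sub_cancel' hwn]
      exact (Nat.modEq_iff_dvd' (Nat.pow_le_pow_right (by omega) hwn)).1 h.symm
    exact (Nat.Prime.dvd_mul hr.1).1 h1 |>.resolve_left fun h2 =>
      hr.coprime_base hp1 hn (hr.1.dvd_of_dvd_pow h2)
  rw [hr.dvd_pow_sub_one_iff' hp1 hn] at hdvd
  rcases Nat.eq_zero_or_pos (n - finrank (ZMod p) W) with h0 | h0
  · exfalso
    refine hy1 (Subtype.ext (LinearEquiv.ext fun w => ?_))
    have hWtop : W = ⊤ := Submodule.eq_top_of_finrank_eq (by simp; omega)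
    exact (hWtop ▸ Submodule.mem_top : w ∈ W)
  · have := Nat.le_of_dvd h0 hdvd
    have hW0 : W = ⊥ := Submodule.finrank_eq_zero.1 (by omega)
    have hvW : v ∈ W := hv
    rwa [hW0, Submodule.mem_bot] at hvW

/-- A subgroup containing such an element is irreducible. -/
theorem irred_of_ppd {r : ℕ} (hr : IsPpd p n r) {A : Subgroup H} {y : H} (hyA : y ∈ A)
    (hy : ∃ k, y ^ r ^ k = 1) (hy1 : y ≠ 1) : Irred A := by
  intro W hW
  haveI := Fact.mk hr.1
  have h := card_modEq_fixed hy W fun g hg => hW g (Subgroup.zpowers_le.2 hyA hg)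
  have e : Nat.card {w : W // ((y : H) : Space p n ≃ₗ[ZMod p] Space p n) w.1 = w.1} = 1 := by
    rw [Nat.card_eq_one_iff_unique]
    exact ⟨⟨fun a b => Subtype.ext (Subtype.ext
      ((fpf_of_ppd hn hr hy hy1 a.2).trans (fpf_of_ppd hn hr hy hy1 b.2).symm))⟩, ⟨⟨0, map_zero _⟩⟩⟩
  rw [e, Module.natCard_eq_pow_finrank (K := ZMod p), Nat.card_zmod] at h
  have hp1 := hpf.out.one_lt
  have hdvd := (Nat.modEq_iff_dvd' (Nat.one_le_pow _ _ (by omega))).1 h.symm
  rw [hr.dvd_pow_sub_one_iff' hp1 hn] at hdvd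
  rcases Nat.eq_zero_or_pos (finrank (ZMod p) W) with h0 | h0
  · exact Or.inl (Submodule.finrank_eq_zero.1 h0)
  · refine Or.inr (Submodule.eq_top_of_finrank_eq (le_antisymm (Submodule.finrank_le W) ?_))
    simpa using Nat.le_of_dvd h0 hdvd

variable (hp' : ¬ p ∣ Nat.card H)
  (htr : ∀ v w : Space p n, v ≠ 0 → w ≠ 0 → ∃ h : H, (h : Space p n ≃ₗ[ZMod p] Space p n) v = w)

include htr in
theorem pow_sub_one_dvd : p ^ n - 1 ∣ Nat.card H := by
  haveI := finite_group (H := H)
  haveI := nontrivial_space (p := p) hn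
  have := sub_one_dvd_card htr
  rwa [card_space] at this

include hp' in
theorem exists_complex : ∃ ρ : Representation ℂ H (Fin n → ℂ), Function.Injective ρ := by
  haveI := finite_group (H := H)
  exact exists_faithful_complex hp' (endHom H) (endHom_injective H)

include hp' htr in
/-- A cyclic primitive prime power. -/
theorem exists_orderOf_ppd_pow {r b : ℕ} (hr : IsPpd p n r) (hdvd : r ^ (b + 1) ∣ p ^ n - 1) :
    ∃ x : H, orderOf x = r ^ (b + 1) := by
  haveI := finite_group (H := H)
  haveI := nontrivial_space (p := p) hn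
  haveI := Fact.mk hr.1
  obtain ⟨ρ, hρ⟩ := exists_complex hn hp'
  obtain ⟨R⟩ : Nonempty (Sylow r H) := inferInstance
  have hdvdH := hdvd.trans (pow_sub_one_dvd hn htr)
  have hRcard : r ^ (b + 1) ∣ Nat.card (R : Subgroup H) := by
    rw [R.card_eq_multiplicity]
    exact pow_dvd_pow r ((hr.1.pow_dvd_iff_le_factorization Nat.card_pos.ne').1 hdvdH)
  haveI : Nontrivial (R : Subgroup H) := Finite.one_lt_card_iff_nontrivial.1
    (lt_of_lt_of_le (Nat.one_lt_pow (by omega) hr.1.one_lt) (Nat.le_of_dvd Nat.card_pos hRcard))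
  obtain ⟨y, hy⟩ := exists_ne (1 : (R : Subgroup H))
  have hirr := irred_of_ppd hn hr y.2 (pElt_of_isPGroup R.isPGroup' y.2)
    (fun h => hy (Subtype.ext h))
  have hfr : finrank ℂ (Fin n → ℂ) < r := by simp [hr.lt hpf.out.one_lt hn]
  haveI : IsCyclic (R : Subgroup H) := ((isInj_commutant hirr).isCyclic_and_card_dvd fun a ha =>
    commute_of_mem_commutant.2 (Subgroup.mem_centralizer_iff.2 fun c hc =>
      commute_of_pGroup hfr hρ R.isPGroup' hc ha)).1
  obtain ⟨g, hg⟩ := IsCyclic.exists_ofOrder_eq_natCard (α := (R : Subgroup H))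
  obtain ⟨c, hc⟩ := hRcard
  refine ⟨((g ^ c : (R : Subgroup H)) : H), ?_⟩
  rw [Subgroup.orderOf_coe, orderOf_pow' g (by rintro rfl; simp [Nat.card_pos.ne'] at hc),
    hg, hc, Nat.gcd_eq_right (dvd_mul_left _ _), Nat.mul_div_cancel _ (by
      rcases Nat.eq_zero_or_pos c with rfl | h
      · simp [Nat.card_pos.ne'] at hc
      · exact h)]

include hp' htr in
/-- Without an irreducible abelian normal subgroup the primitive primes are small. -/
theorem ppd_small (hn3 : 3 ≤ n)
    (hI : ∀ A : Subgroup H, A.Normal → IsMulCommutative A → ¬ Irred A)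
    {r : ℕ} (hr : IsPpd p n r) : r = n + 1 ∨ (r = 2 * n + 1 ∧ ¬ r ^ 2 ∣ p ^ n - 1) := by
  haveI := finite_group (H := H)
  haveI := Fact.mk hr.1
  have hp1 := hpf.out.one_lt
  obtain ⟨c, hc⟩ := hr.dvd_sub_one hp1 hn
  have hrlt := hr.lt hp1 hn
  by_cases hc1 : c = 1
  · left; rw [hc1, mul_one] at hc; omega
  have hc2 : 2 ≤ c := by
    rcases c with _ | _ | c
    · simp at hc; omega
    · exact absurd rfl hc1
    · omega
  have hr2 : 2 * n + 1 ≤ r := by
    have : n * 2 ≤ n * c := Nat.mul_le_mul_left n hc2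
    omega
  obtain ⟨ρ, hρ⟩ := exists_complex hn hp'
  have hfr : finrank ℂ (Fin n → ℂ) = n := Module.finrank_fin_fun ℂ
  obtain ⟨y, hy⟩ := exists_orderOf_ppd_pow hn hp' htr (b := 0) hr (by simpa using hr.2.1)
  have hy' : PElt r y := pElt_of_orderOf hy
  have hy1 : y ≠ 1 := fun h => by
    rw [h, orderOf_one] at hy
    exact hr.1.ne_one (by simpa using hy.symm)
  have hnc : ¬ PComm r ρ := by
    intro hcomm
    have hnormal : (Subgroup.closure {z : H | PElt r z}).Normal := by
      constructor
      intro a ha g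
      induction ha using Subgroup.closure_induction with
      | mem z hz => exact Subgroup.subset_closure (PElt.conj hz g)
      | one => simp
      | mul u v _ _ h1 h2 => simpa [mul_assoc] using mul_mem h1 h2
      | inv u _ h1 => simpa [mul_assoc] using inv_mem h1
    exact hI _ hnormal
      (Subgroup.isMulCommutative_closure (k := {z : H | PElt r z})
        fun u hu v hv => hcomm.commute hρ hu hv)
      (irred_of_ppd hn hr (Subgroup.subset_closure hy') hy' hy1)
  have hd : finrank ℂ (Fin n → ℂ) + 1 < r := by omega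
  have hle := small (ρ := ρ) hd hnc
  have hreq : r = 2 * n + 1 := by omega
  refine Or.inr ⟨hreq, fun hsq => ?_⟩
  obtain ⟨s, t, -, hirr, hns⟩ := exists_big hnc
  haveI := hirr
  have hsle := Submodule.finrank_le s.toSubmodule
  have hs' := small (ρ := s.toRepresentation) (by omega) hns
  have hs : s = ⊤ :=
    Subrepresentation.toSubmodule_injective (Submodule.eq_top_of_finrank_eq (by omega))
  subst hs
  haveI := isIrreducible_of_equiv (topEquiv ρ)
  refine core (p := r) (by omega) n (by omega) H (Fin n → ℂ) ρ hfr hρ inferInstance hnc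
    (fun z hz hzp => ?_) (hsq.trans (pow_sub_one_dvd hn htr))
  by_contra hz1
  exact hI (Subgroup.center H) inferInstance
    (IsMulCommutative.of_comm fun a b => Subtype.ext ((Subgroup.mem_center_iff.1 b.2) a))
    (irred_of_ppd hn hr hz hzp hz1)

include htr in
/-- With an irreducible abelian normal subgroup there are at least `p` classes. -/
theorem semilinear_le_card_classes (hn3 : 3 ≤ n) {A : Subgroup H} (hA : A.Normal)
    (hc : IsMulCommutative A) (hirr : Irred A) : p ≤ Nat.card (ConjClasses H) := by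
  haveI := finite_group (H := H)
  haveI := nontrivial_space (p := p) hn
  haveI : Module.Finite (ZMod p) (Space p n) := Module.Finite.of_finite
  set C := Subgroup.centralizer (A : Set H) with hC
  have hS := isInj_commutant hirr
  have hcount := card_sub_one_le_of_isInj hS (C := C) fun g hg => commute_of_mem_commutant.2 hg
  rw [Module.finrank_fin_fun] at hcount
  have hI := transitive_isInj_of_abelian htr hA hc
  obtain ⟨ψ, hfin, hcardψ, hψ⟩ := exists_conj_field hI fun g r hr => conj_mem_alg hA g hr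
  haveI := hfin
  have hker : ψ.ker ≤ C := fun g hg => by
    rw [hC, Subgroup.mem_centralizer_iff]
    intro a ha
    exact (endHom_injective H (by
      rw [map_mul, map_mul, (hψ g).1 (MonoidHom.mem_ker.1 hg) _ (mem_alg ha)])).symm
  obtain ⟨v, hv⟩ := exists_ne (0 : Space p n)
  have hk : finrank (ZMod p) (alg A) ≤ n := by
    rw [← finrank_orb hI hv]
    simpa using Submodule.finrank_le (orb (alg A) v)
  have hidx : C.index ≤ n := by
    refine (Nat.le_of_dvd ?_ (Subgroup.index_dvd_of_le hker)).trans ?_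
    · exact Nat.pos_of_ne_zero Subgroup.index_ne_zero_of_finite
    · rw [Subgroup.index_ker]
      exact ((Nat.card_le_card_of_injective _ Subtype.coe_injective).trans hcardψ).trans hk
  have hH : p ^ n - 1 ≤ Nat.card H := Nat.le_of_dvd Nat.card_pos (pow_sub_one_dvd hn htr)
  have hHC : Nat.card H ≤ Nat.card C * n := by
    rw [← C.card_mul_index]; exact Nat.mul_le_mul_left _ hidx
  have hmeet := ncard_add_one_le (one_notMem_meeting C)
  by_contra hcon
  push Not at hcon
  have hbound : ∀ m, 3 ≤ m → m * m * (p - 2) + m + 1 < p ^ m := by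
    intro m hm
    induction m, hm using Nat.le_induction with
    | base =>
      obtain ⟨t, rfl⟩ : ∃ t, p = t + 2 := ⟨p - 2, by have := hpf.out.two_le; omega⟩
      simp only [Nat.add_sub_cancel]
      ring_nf
      nlinarith
    | succ m hm ih =>
      have h2 : 2 * p ^ m ≤ p ^ (m + 1) := by
        rw [pow_succ']; exact Nat.mul_le_mul_right _ hpf.out.two_le
      have h3 : (m + 1) * (m + 1) * (p - 2) ≤ 2 * (m * m * (p - 2)) := by
        rw [← mul_assoc]; exact Nat.mul_le_mul_right _ (by nlinarith)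
      omega
  have hC' : Nat.card C ≤ n * (p - 2) + 1 := by
    have : n * (meeting C).ncard ≤ n * (p - 2) := Nat.mul_le_mul_left _ (by omega)
    omega
  have h4 : Nat.card C * n ≤ n * n * (p - 2) + n := by
    calc Nat.card C * n ≤ (n * (p - 2) + 1) * n := Nat.mul_le_mul_right _ hC'
      _ = n * n * (p - 2) + n := by ring
  have := hbound n hn3
  omega

omit hn in
theorem two_facts : (2 : ZMod 5) ≠ 0 ∧ orderOf (2 : ZMod 5) = 4 := by
  refine ⟨by decide, ?_⟩
  rw [orderOf_eq_iff (by norm_num)]
  decide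

omit hn in
theorem mk_ne_of_orderOf_ne {G : Type*} [Group G] {a b : G} (h : orderOf a ≠ orderOf b) :
    ConjClasses.mk a ≠ ConjClasses.mk b := fun e => h (by
  obtain ⟨c, hc⟩ := isConj_iff.1 (ConjClasses.mk_eq_mk_iff_isConj.1 e)
  rw [← hc]
  exact ((MulAut.conj c).orderOf_eq a).symm)

include htr in
/-- An element scaling a vector by a given non-zero scalar. -/
theorem exists_scaling (c : ZMod p) (hc : c ≠ 0) :
    ∃ h : H, orderOf c ∣ orderOf h := by
  haveI := nontrivial_space (p := p) hn
  obtain ⟨v, hv⟩ := exists_ne (0 : Space p n)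
  obtain ⟨h, hh⟩ := htr v (c • v) hv (smul_ne_zero hc hv)
  refine ⟨h, orderOf_dvd_of_pow_eq_one ?_⟩
  have hpow : ∀ j : ℕ, ((h ^ j : H) : Space p n ≃ₗ[ZMod p] Space p n) v = c ^ j • v := by
    intro j
    induction j with
    | zero => simp
    | succ j ih =>
      rw [pow_succ', Subgroup.coe_mul, LinearEquiv.mul_apply, ih, map_smul, hh, smul_smul, ← pow_succ]
  have h1 := hpow (orderOf h)
  rw [pow_orderOf_eq_one, Subgroup.coe_one] at h1
  have h2 : (c ^ orderOf h - 1) • v = 0 := by rw [sub_smul, one_smul, ← h1]; simp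
  exact sub_eq_zero.1 ((smul_eq_zero.1 h2).resolve_right hv)

include hp' htr in
/-- The two small characteristics. -/
theorem le_card_classes_small (hn3 : 3 ≤ n) (hp : p = 3 ∨ p = 5) :
    p ≤ Nat.card (ConjClasses H) := by
  classical
  haveI := finite_group (H := H)
  obtain ⟨ρ, hρ⟩ := exists_complex hn hp'
  obtain ⟨r, hr⟩ := exists_isPpd (a := p) hpf.out.one_lt (show 1 < n by omega) (by omega) (by omega)
  have hrlt := hr.lt hpf.out.one_lt hn
  haveI := Fact.mk hr.1
  obtain ⟨x, hx⟩ := exists_orderOf_ppd_pow hn hp' htr (b := 0) hr (by simpa using hr.2.1)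
  have hcnt := orderOf_sub_one_le ρ hρ hr.1 x hx
  simp only [zero_add, pow_one] at hx hcnt
  rw [Module.finrank_fin_fun] at hcnt
  have hord : ∀ c ∈ meeting (Subgroup.zpowers x), ∀ b : H, ¬ r ∣ orderOf b → c ≠ ConjClasses.mk b := by
    rintro c ⟨y, hy, hy1, rfl⟩ b hb
    refine mk_ne_of_orderOf_ne fun e => hb ?_
    have h1 : orderOf y ∣ r := hx ▸ orderOf_dvd_of_mem_zpowers hy
    rcases (Nat.dvd_prime hr.1).1 h1 with h | h
    · exact absurd (orderOf_eq_one_iff.1 h) hy1
    · rw [← e, h]
  have h2 : 2 ∣ Nat.card H := by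
    refine dvd_trans ?_ (pow_sub_one_dvd hn htr)
    rw [← even_iff_two_dvd, Nat.even_sub (Nat.one_le_pow _ _ hpf.out.pos)]
    simp only [Nat.not_even_one, iff_false, Nat.not_even_iff_odd]
    exact Odd.pow (by rcases hp with rfl | rfl <;> decide)
  haveI := Fact.mk Nat.prime_two
  obtain ⟨i, hi⟩ := exists_prime_orderOf_dvd_card' 2 h2
  set M := meeting (Subgroup.zpowers x) with hM
  have hM1 : 1 ≤ M.ncard := by
    refine (Set.ncard_pos (Set.toFinite _)).2 ⟨_, x, Subgroup.mem_zpowers x, fun h => ?_, rfl⟩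
    rw [h, orderOf_one] at hx
    exact hr.1.ne_one hx.symm
  have hone : ConjClasses.mk 1 ∉ M := one_notMem_meeting _
  have hiM : ConjClasses.mk i ∉ M := fun h => hord _ h i (by
    rw [hi]; exact fun h => by have := Nat.le_of_dvd two_pos h; omega) rfl
  have hi1 : ConjClasses.mk i ≠ ConjClasses.mk 1 := mk_ne_of_orderOf_ne (by rw [hi, orderOf_one]; omega)
  have hbase : 1 ≤ M.ncard → (insert (ConjClasses.mk i) M).ncard + 1 ≤ Nat.card (ConjClasses H) :=
    fun _ => ncard_add_one_le (by
      rw [Set.mem_insert_iff]; push Not; exact ⟨hi1.symm, hone⟩)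
  rcases hp with rfl | rfl
  · have := hbase hM1
    rw [Set.ncard_insert_of_notMem hiM (Set.toFinite _)] at this
    omega
  obtain ⟨h, hh⟩ := exists_scaling hn htr (2 : ZMod 5) two_facts.1
  rw [two_facts.2] at hh
  set f := h ^ (orderOf h / 4)
  have hf : orderOf f = 4 := orderOf_pow_orderOf_div (orderOf_pos h).ne' hh
  have hfM : ConjClasses.mk f ∉ M := fun hm => hord _ hm f (by
    rw [hf]; exact fun hd => by
      have := Nat.le_of_dvd (by norm_num) hd
      have hr2 : r ≠ 4 := fun e => absurd (e ▸ hr.1) (by norm_num)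
      omega) rfl
  have hfi : ConjClasses.mk f ≠ ConjClasses.mk i := mk_ne_of_orderOf_ne (by rw [hf, hi]; omega)
  have hf1 : ConjClasses.mk f ≠ ConjClasses.mk 1 := mk_ne_of_orderOf_ne (by rw [hf, orderOf_one]; omega)
  have hins : (insert (ConjClasses.mk f) (insert (ConjClasses.mk i) M)).ncard = M.ncard + 2 := by
    rw [Set.ncard_insert_of_notMem (by
      rw [Set.mem_insert_iff]; push Not; exact ⟨hfi, hfM⟩) (Set.toFinite _),
      Set.ncard_insert_of_notMem hiM (Set.toFinite _)]
  have hone' : ConjClasses.mk 1 ∉ insert (ConjClasses.mk f) (insert (ConjClasses.mk i) M) := by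
    simp only [Set.mem_insert_iff]; push Not; exact ⟨hf1.symm, hi1.symm, hone⟩
  rcases Nat.even_or_odd n with he | ho
  · have h3 : 3 ∣ Nat.card H := by
      refine dvd_trans ?_ (pow_sub_one_dvd hn htr)
      obtain ⟨m, rfl⟩ := he
      rw [← two_mul, pow_mul]
      refine (show (3:ℕ) ∣ 5 ^ 2 - 1 by norm_num).trans ?_
      have h5 := Nat.sub_dvd_pow_sub_pow (5 ^ 2) 1 m
      rwa [one_pow] at h5
    haveI := Fact.mk Nat.prime_three
    obtain ⟨u, hu⟩ := exists_prime_orderOf_dvd_card' 3 h3
    have huM : ConjClasses.mk u ∉ M := fun hm => hord _ hm u (by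
      rw [hu]; exact fun hd => by have := Nat.le_of_dvd (by norm_num) hd; omega) rfl
    have hnot : ConjClasses.mk u ∉ insert (ConjClasses.mk f) (insert (ConjClasses.mk i) M) := by
      simp only [Set.mem_insert_iff]; push Not
      exact ⟨mk_ne_of_orderOf_ne (by rw [hu, hf]; omega), mk_ne_of_orderOf_ne (by rw [hu, hi]; omega), huM⟩
    have := ncard_add_one_le (S := insert (ConjClasses.mk u)
      (insert (ConjClasses.mk f) (insert (ConjClasses.mk i) M))) (by
        rw [Set.mem_insert_iff]; push Not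
        exact ⟨mk_ne_of_orderOf_ne (by rw [hu, orderOf_one]; omega), hone'⟩)
    rw [Set.ncard_insert_of_notMem hnot (Set.toFinite _), hins] at this
    omega
  · have hr2n : 2 * n + 1 ≤ r := by
      obtain ⟨c, hc⟩ := hr.dvd_sub_one hpf.out.one_lt hn
      have hodd : Odd r := hr.1.odd_of_ne_two (by omega)
      have : 2 ≤ c := by
        rcases c with _ | _ | c
        · simp at hc; omega
        · exfalso
          simp only [zero_add, mul_one] at hc
          obtain ⟨s, hs⟩ := hodd
          obtain ⟨t, ht⟩ := ho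
          omega
        · omega
      have : n * 2 ≤ n * c := Nat.mul_le_mul_left n this
      omega
    have hM2 : 2 ≤ M.ncard := by
      by_contra hcon
      have : n * M.ncard ≤ n * 1 := Nat.mul_le_mul_left n (by omega)
      omega
    have := ncard_add_one_le hone'
    omega

include hp' htr in
/-- At least `p` classes in degree three or more. -/
theorem le_card_classes (hn3 : 3 ≤ n) : p ≤ Nat.card (ConjClasses H) := by
  haveI := finite_group (H := H)
  haveI := nontrivial_space (p := p) hn
  by_cases hI : ∀ A : Subgroup H, A.Normal → IsMulCommutative A → ¬ Irred A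
  swap
  · push Not at hI
    obtain ⟨A, hA, hc, hirr⟩ := hI
    exact semilinear_le_card_classes hn htr hn3 hA hc hirr
  rcases (show p = 2 ∨ p = 3 ∨ p = 5 ∨ 7 ≤ p by
    have := hpf.out.two_le
    rcases (show p = 4 ∨ p = 6 ∨ (p ≠ 4 ∧ p ≠ 6) by omega) with rfl | rfl | h
    · exact absurd hpf.out (by norm_num)
    · exact absurd hpf.out (by norm_num)
    · omega) with h | h | h | h7
  · obtain ⟨r, hr⟩ : ∃ r : ℕ, r.Prime ∧ r ∣ Nat.card H := by
      refine Nat.exists_prime_and_dvd fun h1 => ?_
      have := Nat.le_of_dvd Nat.card_pos (pow_sub_one_dvd hn htr)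
      have h8 : 2 ^ 3 ≤ p ^ n := by rw [h]; exact Nat.pow_le_pow_right (by norm_num) hn3
      omega
    haveI := Fact.mk hr.1
    obtain ⟨y, hy⟩ := exists_prime_orderOf_dvd_card' r hr.2
    haveI : Nontrivial (ConjClasses H) := ⟨_, _, mk_ne_of_orderOf_ne
      (show orderOf y ≠ orderOf (1 : H) by rw [hy, orderOf_one]; exact hr.1.ne_one)⟩
    have : 1 < Nat.card (ConjClasses H) := Finite.one_lt_card
    omega
  · exact le_card_classes_small hn hp' htr hn3 (Or.inl h)
  · exact le_card_classes_small hn hp' htr hn3 (Or.inr h)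
  obtain ⟨ρ, hρ⟩ := exists_complex hn hp'
  have hgen : ∀ {r a : ℕ}, r.Prime → ∀ x : H, orderOf x = r ^ (a + 1) →
      r ^ (a + 1) - 1 ≤ n * (Nat.card (ConjClasses H) - 1) := by
    intro r a hr x hx
    have h1 := orderOf_sub_one_le ρ hρ hr x hx
    rw [Module.finrank_fin_fun] at h1
    exact h1.trans (Nat.mul_le_mul_left _ (by
      have := ncard_add_one_le (one_notMem_meeting (Subgroup.zpowers x)); omega))
  by_contra hcon
  push Not at hcon
  have hk : n * (Nat.card (ConjClasses H) - 1) ≤ n * (p - 2) := Nat.mul_le_mul_left _ (by omega)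
  rcases arith_bound hpf.out h7 hn3 fun r hr => ppd_small hn hp' htr hn3 hI hr with
    ⟨a, hpr, hppd, hdvd, hlt⟩ | ⟨rfl, rfl⟩
  · obtain ⟨x, hx⟩ := exists_orderOf_ppd_pow hn hp' htr hppd hdvd
    have := hgen hpr x hx
    omega
  · have h307 : 307 ∣ Nat.card H :=
      (show 307 ∣ 17 ^ 6 - 1 by norm_num).trans (pow_sub_one_dvd hn htr)
    haveI : Fact (Nat.Prime 307) := ⟨by norm_num⟩
    obtain ⟨x, hx⟩ := exists_prime_orderOf_dvd_card' 307 h307
    have := hgen (r := 307) (a := 0) (by norm_num) x (by simpa using hx)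
    omega

end CfsgLib.CoprimeTransitive
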