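import Cfsg.Agent.Lib.IBr.PPrime
import Cfsg.Agent.Lib.GLCuspidal.Lift
import Cfsg.Agent.Lib.CharDegreesTheory.CharBasic
import Cfsg.Agent.Lib.CharDegreesTheory.BlockDegrees

/-!
# Faithful complex representations of linear groups of order prime to the characteristic

A subgroup of order prime to `p` of a linear group of degree `n` over the field of `p` elements
has a faithful complex representation of degree `n`.
-/

set_option autoImplicit false
set_option linter.unusedSectionVars false
set_option linter.style.haveILetI false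

namespace CfsgLib.CoprimeTransitive

open Cfsg CfsgLib.IBr CfsgLib.GLCuspidal Module Polynomial

variable {p : ℕ} {M : Ideal AlgInt}

/-- A lifted trace equal to the degree belongs to the identity only. -/
theorem eq_one_of_brauEnd {S : PSys p M} {n : ℕ} {X : Module.End S.K (Fin n → S.K)}
    (hX : X ^ S.m = 1) (hb : S.brauEnd X = (n : ℂ)) : X = 1 := by
  classical
  haveI := S.isAlgClosed
  haveI := S.charP
  haveI := Fact.mk S.hp
  have hfr : finrank S.K (Fin n → S.K) = n := Module.finrank_fin_fun S.K
  rw [brauEnd_eq S _ rfl _ hX, liftSum, rootSum, Algebra.algebraMap_self, Polynomial.map_id] at hb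
  have hcard : Multiset.card X.charpoly.roots = n := by
    rw [← (IsAlgClosed.splits X.charpoly).natDegree_eq_card_roots, LinearMap.charpoly_natDegree,
      hfr]
  have hroot : ∀ x ∈ X.charpoly.roots, ∃ j < S.m, S.rootK ^ j = x := by
    intro x hx
    obtain ⟨v, hv⟩ := ((Module.End.hasEigenvalue_iff_isRoot_charpoly _ _).2
      (mem_roots'.1 hx).2).exists_hasEigenvector
    refine exists_pow_eq S ?_
    have h1 := hv.pow_apply S.m
    rw [hX, Module.End.one_apply] at h1
    have h2 : (x ^ S.m - 1) • v = 0 := by rw [sub_smul, one_smul, ← h1, sub_self]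
    exact sub_eq_zero.1 ((smul_eq_zero.1 h2).resolve_right hv.2)
  have hsum0 : (X.charpoly.roots.map fun x => 1 - (lift S x).re).sum = 0 := by
    have h1 := congrArg Complex.re hb
    rw [show ((X.charpoly.roots.map (lift S)).sum).re =
        Complex.reAddGroupHom ((X.charpoly.roots.map (lift S)).sum) from rfl,
      map_multiset_sum, Multiset.map_map] at h1
    simp only [Function.comp_def, Complex.natCast_re] at h1
    replace h1 : (X.charpoly.roots.map fun x => (lift S x).re).sum = (n : ℝ) := h1
    rw [Multiset.sum_map_sub, h1, Multiset.map_const', Multiset.sum_replicate, hcard]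
    simp
  have hall : ∀ x ∈ X.charpoly.roots, x = 1 := by
    intro x hx
    obtain ⟨j, hj, rfl⟩ := hroot x hx
    have hnorm : ∀ y ∈ X.charpoly.roots, ‖lift S y‖ = 1 := fun y hy => by
      obtain ⟨i, -, rfl⟩ := hroot y hy
      rw [lift_rootK_pow, norm_pow]
      rw [S.isPrimitiveRoot_root.norm'_eq_one S.m_pos.ne', one_pow]
    have hnonneg : ∀ t ∈ X.charpoly.roots.map (fun x => 1 - (lift S x).re), (0 : ℝ) ≤ t := by
      intro t ht
      obtain ⟨y, hy, rfl⟩ := Multiset.mem_map.1 ht
      have := Complex.re_le_norm (lift S y)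
      rw [hnorm y hy] at this
      linarith
    have hre : (1 : ℝ) - (lift S (S.rootK ^ j)).re = 0 := by
      obtain ⟨t, ht⟩ := Multiset.exists_cons_of_mem
        (Multiset.mem_map_of_mem (fun x => 1 - (lift S x).re) hx)
      rw [ht, Multiset.sum_cons] at hsum0
      have h1 := hnonneg _ (ht ▸ Multiset.mem_cons_self _ _)
      have h2 : 0 ≤ t.sum :=
        Multiset.sum_nonneg fun a ha => hnonneg a (ht ▸ Multiset.mem_cons_of_mem ha)
      linarith
    have hone : lift S (S.rootK ^ j) = 1 := by
      have h1 : Complex.normSq (lift S (S.rootK ^ j)) = 1 := by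
        rw [Complex.normSq_eq_norm_sq, hnorm _ hx, one_pow]
      rw [Complex.normSq_apply] at h1
      refine Complex.ext (by simp; linarith) ?_
      simp only [Complex.one_im]
      have : (lift S (S.rootK ^ j)).re = 1 := by linarith
      rw [this] at h1
      nlinarith
    rw [lift_rootK_pow, S.isPrimitiveRoot_root.pow_eq_one_iff_dvd] at hone
    obtain ⟨c, rfl⟩ := hone
    rw [pow_mul, S.rootK_pow, one_pow]
  have hchar : X.charpoly = (Polynomial.X - C 1) ^ n := by
    rw [(IsAlgClosed.splits X.charpoly).eq_prod_roots_of_monic X.charpoly_monic,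
      Multiset.eq_replicate_of_mem hall, Multiset.map_replicate, Multiset.prod_replicate, hcard]
  have hnil : (X - 1) ^ n = 0 := by
    have h := X.aeval_self_charpoly
    rw [hchar] at h
    simpa using h
  have hpn : (X - 1) ^ (p ^ n) = 0 :=
    pow_eq_zero_of_le (Nat.lt_pow_self S.hp.one_lt).le hnil
  rcases subsingleton_or_nontrivial (Module.End S.K (Fin n → S.K)) with hs | hs
  · exact Subsingleton.elim _ _
  haveI : CharP (Module.End S.K (Fin n → S.K)) p :=
    charP_of_injective_algebraMap (algebraMap S.K (Module.End S.K (Fin n → S.K))).injective p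
  rw [sub_pow_char_pow_of_commute p n (Commute.one_right X), one_pow, sub_eq_zero] at hpn
  have h1 : orderOf X ∣ p ^ n := orderOf_dvd_of_pow_eq_one hpn
  have h2 : orderOf X ∣ S.m := orderOf_dvd_of_pow_eq_one hX
  have hcop : Nat.Coprime (p ^ n) S.m :=
    Nat.Coprime.pow_left n ((Nat.Prime.coprime_iff_not_dvd S.hp).2 S.hm)
  exact orderOf_eq_one_iff.1 (Nat.dvd_one.1 (hcop ▸ Nat.dvd_gcd h1 h2))

/-- The lift of a linear group of order prime to `p`. -/
theorem exists_faithful_complex [hp : Fact p.Prime] {H : Type} [Group H] [Finite H] {n : ℕ}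
    (hp' : ¬ p ∣ Nat.card H) (f : H →* Module.End (ZMod p) (Fin n → ZMod p))
    (hf : Function.Injective f) :
    ∃ ρ : Representation ℂ H (Fin n → ℂ), Function.Injective ρ := by
  classical
  haveI := Fintype.ofFinite H
  obtain ⟨M, hM⟩ := CfsgLib.CharDegreesTheory.exists_isPModular hp.out
  obtain ⟨S, hfit, -, -⟩ := exists_system hM (Nat.card H) Nat.card_pos.ne'
  haveI := S.charP
  let ι : ZMod p →+* S.K := ZMod.castHom dvd_rfl S.K
  let σ : Representation S.K H (Fin n → S.K) :=
    ((Matrix.toLinAlgEquiv' : Matrix (Fin n) (Fin n) S.K ≃ₐ[S.K] _).toMonoidHom.comp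
      (ι.mapMatrix.toMonoidHom)).comp
      ((LinearMap.toMatrixAlgEquiv' : _ ≃ₐ[ZMod p] Matrix (Fin n) (Fin n) (ZMod p)).toMonoidHom.comp f)
  have hσ : Function.Injective σ := fun a b h => by
    refine hf ((LinearMap.toMatrixAlgEquiv' (R := ZMod p) (n := Fin n)).injective ?_)
    refine Matrix.map_injective ι.injective ?_
    exact (Matrix.toLinAlgEquiv' (R := S.K) (n := Fin n)).injective h
  have hFits : S.Fits H := hfit
  have hchar := PSys.Fits.isCharacter_brau hFits hp' σ
  have hfaith : ∀ g : H, S.brau σ g = S.brau σ 1 → g = 1 := by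
    intro g hg
    rw [PSys.brau_one, Module.finrank_fin_fun, PSys.brau] at hg
    have h1 := eq_one_of_brauEnd (hFits.rep_pow σ g) hg
    rw [(hFits.reg_eq_self_iff g).2 fun h => hp' (h.trans (orderOf_dvd_natCard g))] at h1
    exact hσ (by rw [h1, map_one])
  obtain ⟨ρ, hρ, -⟩ := CfsgLib.CharDegreesTheory.exists_injective_rep hchar hfaith
  have hn : Cfsg.charDegree (S.brau σ) = n := by
    have : S.brau σ 1 = (n : ℂ) := by rw [PSys.brau_one, Module.finrank_fin_fun]
    simp [Cfsg.charDegree, this]
  exact hn ▸ ⟨ρ, hρ⟩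

end CfsgLib.CoprimeTransitive
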