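import Cfsg.Agent.Lib.CoprimeTransitive.Structure

/-!
# The case of a Sylow subgroup of order `p`: the one-dimensional affine group
-/

set_option autoImplicit false
set_option linter.unusedSectionVars false
set_option linter.style.haveILetI false

namespace CfsgLib.CoprimeTransitive

open Cfsg

variable {p : ℕ} [hpf : Fact p.Prime] {Q : Type*} [Group Q] [Finite Q] {V H : Subgroup Q}

/-- A transitive complement on a group of order `p` gives `AGL(1,p)`. -/
theorem Split.line (S : Split p V H) (hV : Nat.card V = p) :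
    Nat.card (ConjClasses H) = p - 1 ∧ Nonempty (Q ≃* ↥(Cfsg.affineGroup (ZMod p))) := by
  classical
  haveI := S.normal
  have hM : Nat.card (Multiplicative (ZMod p)) = p :=
    (Nat.card_congr Multiplicative.toAdd).trans (Nat.card_zmod p)
  let m : V ≃* Multiplicative (ZMod p) := mulEquivOfPrimeCardEq hV hM
  let f : V → ZMod p := fun v => Multiplicative.toAdd (m v)
  let fi : ZMod p → V := fun x => m.symm (Multiplicative.ofAdd x)
  have hfi : ∀ x, f (fi x) = x := fun x => by simp [f, fi]
  have hif : ∀ v, fi (f v) = v := fun v => by simp [f, fi]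
  have hfmul : ∀ a b, f (a * b) = f a + f b := fun a b => by simp [f]
  have hf1 : f 1 = 0 := by simp [f]
  -- the multiplier of an element
  let c : Q → V → V := fun g v => MulAut.conjNormal (H := V) g v
  let coef : Q → ZMod p := fun g => f (c g (fi 1))
  have hlin : ∀ g x, f (c g (fi x)) = coef g * x := by
    intro g x
    let A : ZMod p →+ ZMod p :=
      { toFun := fun y => f (c g (fi y))
        map_zero' := by simp [f, fi, c]
        map_add' := fun y z => by simp [f, fi, c] }
    have h1 : A x = x.val • A 1 := by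
      rw [← map_nsmul, nsmul_one, ZMod.natCast_zmod_val]
    change A x = A 1 * x
    rw [h1, nsmul_eq_mul, ZMod.natCast_zmod_val, mul_comm]
  have hcmul : ∀ g g', coef (g * g') = coef g * coef g' := by
    intro g g'
    rw [← hlin g (coef g')]
    simp only [coef, c, map_mul, MulAut.mul_apply, hif]
  have hcne : ∀ g, coef g ≠ 0 := by
    intro g h
    have h0 : c g (fi 1) = 1 := by rw [← hif (c g (fi 1)), show f (c g (fi 1)) = 0 from h]; simp [fi]
    have h1 : fi 1 = 1 := by
      apply (MulAut.conjNormal (H := V) g).injective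
      rw [map_one]; exact h0
    have h2 := hfi 1
    rw [h1, hf1] at h2
    exact zero_ne_one h2
  have hinjH : ∀ h ∈ H, coef h = 1 → h = 1 := by
    intro h hh h1
    refine S.eq_one (S.self_centralizing _ fun v hv => ?_) hh
    have h2 : c h ⟨v, hv⟩ = ⟨v, hv⟩ := by
      rw [← hif (c h ⟨v, hv⟩), ← hif ⟨v, hv⟩, hlin, h1, one_mul]
    have h3 := congrArg Subtype.val h2
    simp only [c, MulAut.conjNormal_apply] at h3
    exact mul_inv_eq_iff_eq_mul.1 h3
  have hsurjH : ∀ a : ZMod p, a ≠ 0 → ∃ h ∈ H, coef h = a := by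
    intro a ha
    have hne : ∀ x : ZMod p, x ≠ 0 → ((fi x : V) : Q) ≠ 1 := fun x hx h => hx (by
      rw [← hfi x, show fi x = 1 from Subtype.ext h, hf1])
    obtain ⟨h, hh, hc⟩ := S.trans (fi 1) (fi 1).2 (fi a) (fi a).2 (hne 1 one_ne_zero) (hne a ha)
    refine ⟨h, hh, ?_⟩
    have : c h (fi 1) = fi a := Subtype.ext (by simp only [c, MulAut.conjNormal_apply]; exact hc)
    show f (c h (fi 1)) = a
    rw [this, hfi]
  refine ⟨?_, ?_⟩
  · let χ : H →* (ZMod p)ˣ :=
      { toFun := fun h => Units.mk0 (coef h) (hcne h)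
        map_one' := Units.ext (by simp [coef, c, hfi])
        map_mul' := fun a b => Units.ext (hcmul a b) }
    have hinj : Function.Injective χ := by
      rw [injective_iff_map_eq_one]
      intro h hh
      exact Subtype.ext (hinjH h h.2 (congrArg Units.val hh))
    have hsurj : Function.Surjective χ := fun u => by
      obtain ⟨h, hh, hc⟩ := hsurjH u u.ne_zero
      exact ⟨⟨h, hh⟩, Units.ext hc⟩
    have hmk : Function.Bijective (ConjClasses.mk : H → ConjClasses H) :=
      ⟨fun a b h => hinj (by
        obtain ⟨d, hd⟩ := isConj_iff.1 (ConjClasses.mk_eq_mk_iff_isConj.1 h)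
        rw [← hd, map_mul, map_mul, map_inv, mul_comm (χ d), mul_inv_cancel_right]),
        ConjClasses.mk_surjective⟩
    rw [← Nat.card_eq_of_bijective _ hmk, Nat.card_eq_of_bijective χ ⟨hinj, hsurj⟩, Nat.card_units,
      Nat.card_zmod]
  · let dec := Equiv.ofBijective (fun x : V × H => (x.1 : Q) * (x.2 : Q)) S.compl
    let proj : Q → V := fun g => (dec.symm g).1
    have hdec : ∀ (u : V) (h : Q), h ∈ H → proj ((u : Q) * h) = u := fun u h hh => by
      have : dec (u, ⟨h, hh⟩) = (u : Q) * h := rfl
      simp only [proj, ← this, Equiv.symm_apply_apply]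
    let act : Q → ZMod p → ZMod p := fun g x => f (proj (g * (fi x : Q)))
    have hact : ∀ g g' x, act g (act g' x) = act (g * g') x := by
      intro g g' x
      simp only [act, hif]
      obtain ⟨u, hu, h, hh, huh⟩ := S.exists_mul (g' * (fi x : Q))
      obtain ⟨u', hu', h', hh', huh'⟩ := S.exists_mul (g * u)
      rw [mul_assoc g g', ← huh, hdec ⟨u, hu⟩ h hh, ← mul_assoc, ← huh',
        hdec ⟨u', hu'⟩ h' hh', mul_assoc u' h' h, hdec ⟨u', hu'⟩ (h' * h) (mul_mem hh' hh)]
    have hone : ∀ x, act 1 x = x := fun x => by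
      have := hdec (fi x) 1 H.one_mem
      rw [mul_one] at this
      simp only [act, one_mul, this, hfi]
    let ψ : Q →* Equiv.Perm (ZMod p) :=
      { toFun := fun g => ⟨act g, act g⁻¹, fun x => by rw [hact, inv_mul_cancel, hone],
          fun x => by rw [hact, mul_inv_cancel, hone]⟩
        map_one' := Equiv.ext hone
        map_mul' := fun g g' => Equiv.ext fun x => (hact g g' x).symm }
    have hform : ∀ u : V, ∀ h ∈ H, ∀ x, ψ ((u : Q) * h) x = coef h * x + f u := by
      intro u h hh x
      have e : (u : Q) * h * (fi x : Q) = ((u * c h (fi x) : V) : Q) * h := by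
        simp only [Subgroup.coe_mul, c, MulAut.conjNormal_apply]
        group
      show f (proj ((u : Q) * h * (fi x : Q))) = _
      rw [e, hdec _ h hh, hfmul, hlin, add_comm]
    have hrange : ψ.range = Cfsg.affineGroup (ZMod p) := by
      refine le_antisymm ?_ ?_
      · rintro _ ⟨g, rfl⟩
        obtain ⟨u, hu, h, hh, rfl⟩ := S.exists_mul g
        exact ⟨Units.mk0 (coef h) (hcne h), f ⟨u, hu⟩, fun x => hform ⟨u, hu⟩ h hh x⟩
      · rintro σ ⟨a, b, hσ⟩
        obtain ⟨h, hh, hc⟩ := hsurjH a a.ne_zero
        refine ⟨(fi b : Q) * h, Equiv.ext fun x => ?_⟩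
        rw [hform _ h hh, hc, hfi, hσ]
    have hinj : Function.Injective ψ := by
      rw [injective_iff_map_eq_one]
      intro g hg
      obtain ⟨u, hu, h, hh, rfl⟩ := S.exists_mul g
      have h0 := hform ⟨u, hu⟩ h hh 0
      have h1 := hform ⟨u, hu⟩ h hh 1
      rw [hg, Equiv.Perm.one_apply] at h0 h1
      rw [mul_zero, zero_add] at h0
      rw [← h0, add_zero, mul_one] at h1
      have hu1 : (⟨u, hu⟩ : V) = 1 := by
        rw [← hif ⟨u, hu⟩, ← h0]
        simp [fi]
      rw [show u = 1 from congrArg Subtype.val hu1, hinjH h hh h1.symm, one_mul]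
    exact ⟨(MonoidHom.ofInjective hinj).trans (MulEquiv.subgroupCongr hrange)⟩

end CfsgLib.CoprimeTransitive
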