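import Cfsg.Agent.Lib.Replacement.LinearTI

/-!
The number of conjugacy classes of a group with abelian centralizers of non-central elements.
-/

set_option autoImplicit false
set_option linter.style.haveILetI false

namespace CfsgLib.CoprimeTransitive.PlaneCount

open Finset CfsgLib.Replacement.LinearTI

variable {H : Type*} [Group H] [Finite H] [Fintype H] [DecidableEq (Subgroup H)] {Z : Subgroup H}

/-- A representative of a class. -/
noncomputable def rep (c : ConjClasses H) : H := Classical.choose (ConjClasses.mk_surjective c)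

omit [Finite H] [Fintype H] [DecidableEq (Subgroup H)] in
theorem mk_rep (c : ConjClasses H) : ConjClasses.mk (rep c) = c :=
  Classical.choose_spec (ConjClasses.mk_surjective c)

theorem card_C (hH : Hyp Z) (g : H) : Nat.card (C g) = Z.relIndex (C g) * Nat.card Z := by
  rw [Subgroup.relIndex, ← Subgroup.index_mul_card (Z.subgroupOf (C g))]
  congr 1
  exact Nat.card_congr (Subgroup.subgroupOfEquivOfLe (hH.le_C g)).toEquiv

open Classical in
omit [DecidableEq (Subgroup H)] [Finite H] in
theorem card_mk_eq (g : H) :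
    (univ.filter fun u : H => ConjClasses.mk u = ConjClasses.mk g).card = (C g).index := by
  have h : (C g).index = Nat.card (MulAction.orbit (ConjAct H) g) := by
    rw [Nat.card_congr (MulAction.orbitEquivQuotientStabilizer (ConjAct H) g), ← Subgroup.index_eq_card,
      ConjAct.stabilizer_eq_centralizer]
    rfl
  rw [h, ← Nat.card_eq_finsetCard]
  exact Nat.card_congr (Equiv.subtypeEquivRight fun u => by
    rw [mem_filter, ConjClasses.mk_eq_mk_iff_isConj, ← ConjAct.mem_orbit_conjAct]
    simp)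

open Classical in
/-- The classes lying in one class of centralizers. -/
noncomputable def part (Z : Subgroup H) (ω : Finset (Subgroup H)) : Finset (ConjClasses H) :=
  univ.filter fun c => rep c ∉ Z ∧ cl (rep c) = ω

open Classical in
theorem weight_eq (hH : Hyp Z) {g : H} (hg : g ∉ Z) :
    (part Z (cl g)).card * Nat.card H =
      weight Z (cl g) * (Z.relIndex (C g) * Nat.card Z) := by
  have hmap : Set.MapsTo ConjClasses.mk
      (↑(univ.filter fun u : H => u ∉ Z ∧ cl u = cl g) : Set H) (↑(part Z (cl g)) : Set (ConjClasses H)) := by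
    intro u hu
    obtain ⟨hu, hcl⟩ := (mem_filter.1 hu).2
    obtain ⟨x, hx⟩ := isConj_iff.1 (ConjClasses.mk_eq_mk_iff_isConj.1 (mk_rep (ConjClasses.mk u))).symm
    refine mem_filter.2 ⟨mem_univ _, hx ▸ hH.conj_not_mem hu x, ?_⟩
    rw [← hcl, ← hx]
    exact cl_eq_iff.2 (mem_image.2 ⟨x, mem_univ _, rfl⟩)
  rw [weight, card_eq_sum_card_fiberwise hmap, sum_mul, sum_const_nat]
  intro c hc
  obtain ⟨hc, hcl⟩ := (mem_filter.1 hc).2
  have hfil : (univ.filter fun u : H => u ∉ Z ∧ cl u = cl g).filter (fun u => ConjClasses.mk u = c) =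
      univ.filter fun u : H => ConjClasses.mk u = ConjClasses.mk (rep c) := by
    ext u
    simp only [mem_filter, mem_univ, true_and, mk_rep]
    refine ⟨fun h => h.2, fun h => ⟨?_, h⟩⟩
    obtain ⟨x, hx⟩ := isConj_iff.1 (ConjClasses.mk_eq_mk_iff_isConj.1 ((mk_rep c).trans h.symm))
    refine ⟨hx ▸ hH.conj_not_mem hc x, ?_⟩
    rw [← hcl, ← hx]
    exact cl_eq_iff.2 (mem_image.2 ⟨x, mem_univ _, rfl⟩)
  rw [hfil, card_mk_eq, ← card_C hH]
  obtain ⟨x, -, hx⟩ := mem_image.1 (cl_eq_iff.1 hcl)
  have : Nat.card (C g) = Nat.card (C (rep c)) := by rw [← hx, card_C_conj]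
  rw [this]
  exact (C (rep c)).index_mul_card

open Classical in
theorem card_classes (hH : Hyp Z) :
    Nat.card (ConjClasses H) = Nat.card Z + ∑ ω ∈ classes Z, (part Z ω).card := by
  rw [Nat.card_eq_fintype_card, ← Finset.card_univ,
    ← card_filter_add_card_filter_not (s := univ) (fun c : ConjClasses H => rep c ∈ Z)]
  congr 1
  · rw [← Nat.card_eq_finsetCard]
    have hfix : ∀ z ∈ Z, rep (ConjClasses.mk z) = z := fun z hz => by
      obtain ⟨x, hx⟩ := isConj_iff.1 (ConjClasses.mk_eq_mk_iff_isConj.1 (mk_rep (ConjClasses.mk z))).symm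
      rw [← hx, Subgroup.mem_center_iff.1 (hH.central hz) x, mul_assoc, mul_inv_cancel, mul_one]
    refine Nat.card_congr ⟨fun c => ⟨rep c.1, (mem_filter.1 c.2).2⟩,
      fun z => ⟨ConjClasses.mk z.1, mem_filter.2 ⟨mem_univ _, by rw [hfix z.1 z.2]; exact z.2⟩⟩,
      fun c => Subtype.ext (mk_rep c.1), fun z => Subtype.ext (hfix z.1 z.2)⟩
  · have hmap : Set.MapsTo (fun c => cl (rep c))
        (↑(univ.filter fun c : ConjClasses H => rep c ∉ Z) : Set (ConjClasses H))
        (↑(classes Z) : Set (Finset (Subgroup H))) := fun c hc =>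
      mem_image.2 ⟨rep c, mem_filter.2 ⟨mem_univ _, (mem_filter.1 hc).2⟩, rfl⟩
    rw [card_eq_sum_card_fiberwise hmap]
    exact sum_congr rfl fun ω _ => by rw [part, filter_filter]

open Classical in
theorem cl_card_eq_one (hH : Hyp Z) {g : H} (hg : g ∉ Z) (hk : 6 ≤ Z.relIndex (C g)) :
    (cl g).card = 1 := by
  refine card_eq_one.2 ⟨C g, eq_singleton_iff_unique_mem.2 ⟨self_mem_cl g, fun B hB => ?_⟩⟩
  obtain ⟨x, -, rfl⟩ := mem_image.1 hB
  refine eq_of_six_le hH hg (hH.conj_not_mem hg x) hk ?_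
  have h1 := card_C_conj g x
  rw [card_C hH, card_C hH] at h1
  rw [Nat.eq_of_mul_eq_mul_right Nat.card_pos h1]
  omega

open Classical in
/-- A centralizer of index at least six is a normal abelian subgroup of index at most two. -/
theorem large_normal (hH : Hyp Z) {g : H} (hg : g ∉ Z) (hk : 6 ≤ Z.relIndex (C g)) :
    (C g).Normal ∧ IsMulCommutative (C g) ∧ (C g).index ≤ 2 := by
  obtain ⟨e, he, -, hh, -⟩ := class_data hH hg
  have hone := cl_card_eq_one hH hg hk
  refine ⟨⟨fun y hy x => ?_⟩, IsMulCommutative.of_comm fun a b =>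
    Subtype.ext (hH.abelian g hg a b (mem_C.1 a.2) (mem_C.1 b.2)), ?_⟩
  · have hx : C (x * g * x⁻¹) = C g :=
      card_le_one.1 hone.le _ (mem_image.2 ⟨x, mem_univ _, rfl⟩) _ (self_mem_cl g)
    rw [← hx, mem_C]
    calc x * y * x⁻¹ * (x * g * x⁻¹) = x * (y * g) * x⁻¹ := by group
      _ = x * (g * y) * x⁻¹ := by rw [mem_C.1 hy]
      _ = x * g * x⁻¹ * (x * y * x⁻¹) := by group
  · have h1 := (C g).index_mul_card
    rw [card_C hH] at h1
    have h2 : (C g).index * (Z.relIndex (C g) * Nat.card Z) = e * (Z.relIndex (C g) * Nat.card Z) := by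
      rw [h1, hh, hone]; ring
    have := Nat.eq_of_mul_eq_mul_right (Nat.mul_pos (by omega) Nat.card_pos) h2
    omega

open Classical in
/-- A centralizer of index at least six. -/
theorem large_bound (hH : Hyp Z) {g : H} (hg : g ∉ Z) (hk : 6 ≤ Z.relIndex (C g)) :
    Nat.card H + 2 * Nat.card Z ≤ 4 * Nat.card (ConjClasses H) := by
  obtain ⟨e, he, hk2, hh, hx⟩ := class_data hH hg
  have hone := cl_card_eq_one hH hg hk
  have hw : weight Z (cl g) = (cl g).card * (Z.relIndex (C g) - 1) * Nat.card Z := hx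
  have hm := weight_eq hH hg
  rw [hone, one_mul] at hw hh
  rw [hw, hh] at hm
  have hsum := card_classes hH
  have hle : (part Z (cl g)).card ≤ ∑ ω ∈ classes Z, (part Z ω).card :=
    single_le_sum (f := fun ω => (part Z ω).card) (fun _ _ => Nat.zero_le _)
      (mem_image.2 ⟨g, by simp [hg], rfl⟩)
  obtain ⟨k, hke⟩ : ∃ k, Z.relIndex (C g) = k + 1 := ⟨Z.relIndex (C g) - 1, by omega⟩
  rw [hke, Nat.add_sub_cancel] at hm
  rw [hh, hke]
  set m := (part Z (cl g)).card
  set z := Nat.card Z with hz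
  have hpos : 0 < (k + 1) * z := Nat.mul_pos (by omega) Nat.card_pos
  rcases he with rfl | rfl
  · have h2 : m * ((k + 1) * z) = k * z * ((k + 1) * z) := by rw [← hm]; ring
    have h3 := Nat.eq_of_mul_eq_mul_right hpos h2
    have : 5 * z ≤ k * z := Nat.mul_le_mul_right z (by omega)
    rw [one_mul, Nat.add_mul, one_mul]
    omega
  · have h2 : 2 * m * ((k + 1) * z) = k * z * ((k + 1) * z) := by rw [← hm]; ring
    have h3 := Nat.eq_of_mul_eq_mul_right hpos h2
    rw [Nat.mul_assoc, Nat.add_mul, one_mul]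
    omega

/-- The contributions of one class of centralizers, scaled. -/
def opts : Finset (ℕ × ℕ) :=
  {(60, 2), (80, 4), (90, 6), (96, 8), (30, 1), (40, 2), (45, 3), (48, 4)}

/-- The possible indices and class numbers. -/
def shapes : Finset (ℕ × ℕ) :=
  {(1, 0), (2, 2), (3, 4), (4, 3), (4, 6), (5, 8), (6, 4), (8, 5), (10, 6), (12, 5), (24, 6), (60, 7)}

theorem shapes_complete : ∀ a ∈ insert (0, 0) opts, ∀ b ∈ insert (0, 0) opts, ∀ c ∈ insert (0, 0) opts,
    a.1 + b.1 + c.1 < 120 → 120 % (120 - (a.1 + b.1 + c.1)) = 0 →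
      (120 / (120 - (a.1 + b.1 + c.1)), a.2 + b.2 + c.2) ∈ shapes := by
  decide +kernel

open Classical in
/-- The shapes with small centralizers. -/
theorem small_shapes (hH : Hyp Z) (hsmall : ∀ g : H, g ∉ Z → Z.relIndex (C g) ≤ 5) :
    ∃ N Y, (N, Y) ∈ shapes ∧ Nat.card H = N * Nat.card Z ∧
      2 * Nat.card (ConjClasses H) = (2 + Y) * Nat.card Z := by
  set z := Nat.card Z
  set h := Nat.card H
  have hz : 0 < z := Nat.card_pos
  have hdata : ∀ ω ∈ classes Z, ∃ o ∈ opts,
      120 * weight Z ω = o.1 * h ∧ 2 * (part Z ω).card = o.2 * z := by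
    intro ω hω
    obtain ⟨g, hg, rfl⟩ := mem_image.1 hω
    replace hg := (mem_filter.1 hg).2
    obtain ⟨e, he, hk2, hh, hx⟩ := class_data hH hg
    have hk5 := hsmall g hg
    have hw : weight Z (cl g) = (cl g).card * (Z.relIndex (C g) - 1) * Nat.card Z := hx
    have hm := weight_eq hH hg
    set q := (cl g).card
    set m := (part Z (cl g)).card
    set k := Z.relIndex (C g)
    have hq : 0 < q := card_pos.2 ⟨_, self_mem_cl g⟩
    rw [show Nat.card H = h from rfl, show h = _ from hh, hw] at hm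
    change h = q * (e * k) * z at hh
    change m * (q * (e * k) * z) = q * (k - 1) * z * (k * z) at hm
    have h2 : m * e = (k - 1) * z := by
      refine Nat.eq_of_mul_eq_mul_right (show 0 < q * k * z by positivity) ?_
      calc m * e * (q * k * z) = m * (q * (e * k) * z) := by ring
        _ = (k - 1) * z * (q * k * z) := by rw [hm]; ring
    rw [hw]
    interval_cases k <;> rcases he with rfl | rfl
    · exact ⟨(60, 2), by decide, by rw [hh]; ring, by dsimp only; omega⟩
    · exact ⟨(30, 1), by decide, by rw [hh]; ring, by dsimp only; omega⟩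
    · exact ⟨(80, 4), by decide, by rw [hh]; ring, by dsimp only; omega⟩
    · exact ⟨(40, 2), by decide, by rw [hh]; ring, by dsimp only; omega⟩
    · exact ⟨(90, 6), by decide, by rw [hh]; ring, by dsimp only; omega⟩
    · exact ⟨(45, 3), by decide, by rw [hh]; ring, by dsimp only; omega⟩
    · exact ⟨(96, 8), by decide, by rw [hh]; ring, by dsimp only; omega⟩
    · exact ⟨(48, 4), by decide, by rw [hh]; ring, by dsimp only; omega⟩
  choose! o ho hw hm using hdata
  have heq : (∑ ω ∈ classes Z, weight Z ω) + z = h := class_equation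
  have hX : 120 * z + (∑ ω ∈ classes Z, (o ω).1) * h = 120 * h := by
    rw [sum_mul, ← sum_congr rfl hw, ← mul_sum, ← heq]; ring
  have hY : 2 * Nat.card (ConjClasses H) = (2 + ∑ ω ∈ classes Z, (o ω).2) * z := by
    rw [card_classes hH, mul_add, mul_sum, add_mul, sum_mul, sum_congr rfl hm]
  set X := ∑ ω ∈ classes Z, (o ω).1 with hXdef
  have hpos : 0 < h := Nat.card_pos
  have hX120 : X < 120 := by
    by_contra hc
    have := Nat.mul_le_mul_right h (Nat.le_of_not_lt hc)
    omega
  have hN : (120 - X) * h = 120 * z := by rw [Nat.sub_mul]; omega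
  obtain ⟨t, ht⟩ : z ∣ h := Z.card_subgroup_dvd_card
  have hdiv : (120 - X) * t = 120 := Nat.eq_of_mul_eq_mul_right hz (by rw [← hN, ht]; ring)
  have h30 : ∀ ω ∈ classes Z, 30 ≤ (o ω).1 := fun ω hω =>
    (show ∀ a ∈ opts, 30 ≤ a.1 by decide) _ (ho ω hω)
  have hcard : (classes Z).card ≤ 3 := by
    have := card_nsmul_le_sum _ (fun ω => (o ω).1) 30 h30
    rw [smul_eq_mul] at this
    change _ ≤ X at this
    omega
  obtain ⟨a, ha, b, hb, c, hc, hsX, hsY⟩ :
      ∃ a ∈ insert (0, 0) opts, ∃ b ∈ insert (0, 0) opts, ∃ c ∈ insert (0, 0) opts,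
        a.1 + b.1 + c.1 = X ∧ a.2 + b.2 + c.2 = ∑ ω ∈ classes Z, (o ω).2 := by
    rcases h4 : (classes Z).card with _ | _ | _ | _ | n
    · refine ⟨(0, 0), by decide, (0, 0), by decide, (0, 0), by decide, ?_, ?_⟩ <;>
        simp [hXdef, card_eq_zero.1 h4]
    · obtain ⟨u, hu⟩ := card_eq_one.1 h4
      refine ⟨o u, mem_insert_of_mem (ho u (by simp [hu])), (0, 0), by decide, (0, 0), by decide, ?_, ?_⟩ <;>
        simp [hXdef, hu]
    · obtain ⟨u, v, huv, hu⟩ := card_eq_two.1 h4
      refine ⟨o u, mem_insert_of_mem (ho u (by simp [hu])), o v, mem_insert_of_mem (ho v (by simp [hu])),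
        (0, 0), by decide, ?_, ?_⟩ <;> simp [hXdef, hu, sum_pair huv]
    · obtain ⟨u, v, w, huv, huw, hvw, hu⟩ := card_eq_three.1 h4
      refine ⟨o u, mem_insert_of_mem (ho u (by simp [hu])), o v, mem_insert_of_mem (ho v (by simp [hu])),
        o w, mem_insert_of_mem (ho w (by simp [hu])), ?_, ?_⟩ <;>
        simp [hXdef, hu, huv, huw, hvw, add_assoc]
    · omega
  have hsh := shapes_complete a ha b hb c hc (by omega)
    (by rw [hsX]; exact Nat.mod_eq_zero_of_dvd (Dvd.intro t hdiv))
  rw [hsX, hsY, show 120 / (120 - X) = t from Nat.div_eq_of_eq_mul_left (by omega) (by rw [Nat.mul_comm, hdiv])] at hsh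
  exact ⟨t, _, hsh, by rw [ht, Nat.mul_comm], hY⟩

end CfsgLib.CoprimeTransitive.PlaneCount
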