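import Cfsg.Agent.Lib.CoprimeTransitive.High
import Cfsg.Agent.Lib.CoprimeTransitive.PlaneCount
import Cfsg.Agent.Lib.Replacement.LinearPlane
import Cfsg.Agent.Lib.SL2.Dickson.Sixty
import Cfsg.Agent.S0689

/-!
# Transitive linear groups of order prime to `p` in the plane

Such a group has at least `p` classes, unless `p = 11` and it is `SL(2,5)` with nine classes.
-/

set_option autoImplicit false
set_option linter.unusedSectionVars false
set_option linter.style.haveILetI false

namespace CfsgLib.CoprimeTransitive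

open CfsgLib.Replacement CfsgLib.TransitiveLinear

variable {p : ℕ} [hpf : Fact p.Prime] {H : Subgroup (Space p 2 ≃ₗ[ZMod p] Space p 2)}

/-- The linear equivalences as units of the endomorphisms. -/
noncomputable def unitsEquiv : (Space p 2 ≃ₗ[ZMod p] Space p 2) ≃* (Module.End (ZMod p) (Space p 2))ˣ :=
  (LinearMap.GeneralLinearGroup.generalLinearEquiv (ZMod p) (Space p 2)).symm

variable (hp' : ¬ p ∣ Nat.card H)
  (htr : ∀ v w : Space p 2, v ≠ 0 → w ≠ 0 → ∃ h : H, (h : Space p 2 ≃ₗ[ZMod p] Space p 2) v = w)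

include hp' in
/-- The shape of a plane group. -/
theorem plane_data (hp5 : 5 ≤ p) :
    (∃ A : Subgroup H, A.Normal ∧ IsMulCommutative A ∧ A.index ≤ 2 ∧
      Nat.card H + 2 ≤ 4 * Nat.card (ConjClasses H)) ∨
    ∃ Z : Subgroup H, LinearTI.Hyp Z ∧ (∀ g : H, g ∉ Z → Z.relIndex (LinearTI.C g) ≤ 5) ∧
      (∀ g : H, g ∈ Z ↔ ∃ c : ZMod p, ∀ v, ((g : H) : Space p 2 ≃ₗ[ZMod p] Space p 2) v = c • v) ∧
      Nat.card Z ∣ p - 1 ∧ ∃ N Y, (N, Y) ∈ PlaneCount.shapes ∧ Nat.card H = N * Nat.card Z ∧
        2 * Nat.card (ConjClasses H) = (2 + Y) * Nat.card Z := by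
  classical
  haveI := finite_group (H := H)
  set H' := H.map (unitsEquiv (p := p)).toMonoidHom with hH'
  let e : H ≃* H' := (unitsEquiv (p := p)).subgroupMap H
  haveI : Finite H' := Finite.of_equiv _ e.toEquiv
  have hd : Module.finrank (ZMod p) (Space p 2) = 2 := Module.finrank_fin_fun _
  have hcop : ¬ p ∣ Nat.card H' := by rwa [← Nat.card_congr e.toEquiv]
  have hH := LinearTI.hyp hd (H := H') (by omega) hcop
  set Z' := LinearTI.scalars H' with hZ'
  set Z : Subgroup H := Z'.comap e.toMonoidHom with hZ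
  have hC : ∀ g x : H, x ∈ LinearTI.C g ↔ e x ∈ LinearTI.C (e g) := fun g x => by
    rw [LinearTI.mem_C, LinearTI.mem_C, ← map_mul, ← map_mul, e.injective.eq_iff]
  have hHyp : LinearTI.Hyp Z := by
    constructor
    · intro g hg
      refine Subgroup.mem_center_iff.2 fun x => e.injective ?_
      rw [map_mul, map_mul]
      exact Subgroup.mem_center_iff.1 (hH.central hg) _
    · intro g hg x y hx hy
      refine e.injective ?_
      rw [map_mul, map_mul]
      exact hH.abelian (e g) hg (e x) (e y) (by rw [← map_mul, hx, map_mul]) (by rw [← map_mul, hy, map_mul])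
    · intro g hg x y hx hy
      have hx' := (hC g _).1 hx
      have hy' := (hC g _).1 hy
      simp only [map_mul, map_inv] at hx' hy'
      rcases hH.two (e g) hg (e x) (e y) hx' hy' with h | h | h
      · exact Or.inl (e.injective (by simpa using h))
      · exact Or.inr (Or.inl (e.injective (by simpa using h)))
      · exact Or.inr (Or.inr (e.injective (by simpa using h)))
  have hmem : ∀ g : H, g ∈ Z ↔ ∃ c : ZMod p, ∀ v,
      ((g : H) : Space p 2 ≃ₗ[ZMod p] Space p 2) v = c • v := by
    intro g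
    constructor
    · intro h
      obtain ⟨c, hc⟩ := h
      exact ⟨c, fun v => LinearMap.congr_fun hc v⟩
    · intro h
      obtain ⟨c, hc⟩ := h
      exact ⟨c, LinearMap.ext hc⟩
  have hz : Nat.card Z ∣ p - 1 := by
    have hpu : Nat.card (ZMod p)ˣ = p - 1 := by
      rw [Nat.card_units, Nat.card_zmod]
    let φ : (ZMod p)ˣ →* (Module.End (ZMod p) (Space p 2))ˣ :=
      Units.map (algebraMap (ZMod p) (Module.End (ZMod p) (Space p 2))).toMonoidHom
    have hle : (Z'.map H'.subtype) ≤ φ.range := by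
      rintro _ ⟨g, ⟨c, hc⟩, rfl⟩
      have hc0 : c ≠ 0 := by
        rintro rfl
        haveI : Nontrivial (Space p 2) := nontrivial_space (by norm_num)
        exact (g : (Module.End (ZMod p) (Space p 2))ˣ).ne_zero (by rw [hc, zero_smul])
      refine ⟨Units.mk0 c hc0, Units.ext ?_⟩
      rw [Units.coe_map]
      change algebraMap (ZMod p) (Module.End (ZMod p) (Space p 2)) c =
        ((g : (Module.End (ZMod p) (Space p 2))ˣ) : Module.End (ZMod p) (Space p 2))
      rw [hc, Algebra.algebraMap_eq_smul_one]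
    have h1 : Nat.card Z = Nat.card (Z'.map H'.subtype) := by
      rw [Nat.card_congr (Z'.equivMapOfInjective H'.subtype H'.subtype_injective).symm.toEquiv]
      exact Nat.card_congr ⟨fun g => ⟨e g.1, g.2⟩, fun g => ⟨e.symm g.1, by
        rw [hZ, Subgroup.mem_comap]; simpa using g.2⟩,
        fun g => Subtype.ext (e.symm_apply_apply g.1), fun g => Subtype.ext (e.apply_symm_apply g.1)⟩
    rw [h1]
    exact (Subgroup.card_dvd_of_le hle).trans (hpu ▸ Subgroup.card_range_dvd φ)
  haveI : Fintype H := Fintype.ofFinite H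
  by_cases hlarge : ∃ g : H, g ∉ Z ∧ 6 ≤ Z.relIndex (LinearTI.C g)
  · obtain ⟨g, hg, hk⟩ := hlarge
    obtain ⟨h1, h2, h3⟩ := PlaneCount.large_normal hHyp hg hk
    refine Or.inl ⟨_, h1, h2, h3, ?_⟩
    have := PlaneCount.large_bound hHyp hg hk
    have := Nat.card_pos (α := Z)
    omega
  · push Not at hlarge
    refine Or.inr ⟨Z, hHyp, fun g hg => Nat.lt_succ_iff.1 (hlarge g hg), hmem, hz, ?_⟩
    exact PlaneCount.small_shapes hHyp fun g hg => Nat.lt_succ_iff.1 (hlarge g hg)

include htr in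
/-- A transitive group of order `p ^ 2 - 1` is regular. -/
theorem regular_of_card (hcard : Nat.card H = p ^ 2 - 1) :
    ∀ v w : Space p 2, v ≠ 0 → w ≠ 0 → ∃! h : H, (h : Space p 2 ≃ₗ[ZMod p] Space p 2) v = w := by
  classical
  haveI := finite_group (H := H)
  intro v w hv hw
  let f : H → {u : Space p 2 // u ≠ 0} := fun h =>
    ⟨(h : Space p 2 ≃ₗ[ZMod p] Space p 2) v, (LinearEquiv.map_ne_zero_iff _).2 hv⟩
  have hf : Function.Surjective f := fun u => by
    obtain ⟨h, hh⟩ := htr v u.1 hv u.2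
    exact ⟨h, Subtype.ext hh⟩
  haveI : Fintype (Space p 2) := Fintype.ofFinite _
  have hsub : Nat.card {u : Space p 2 // u ≠ 0} = p ^ 2 - 1 := by
    rw [Nat.card_eq_fintype_card, Fintype.card_subtype_compl, Fintype.card_subtype_eq,
      ← Nat.card_eq_fintype_card, card_space]
  have hbij := (Nat.bijective_iff_surjective_and_card f).2 ⟨hf, by rw [hcard, hsub]⟩
  obtain ⟨h, hh⟩ := hf ⟨w, hw⟩
  exact ⟨h, congrArg Subtype.val hh, fun h' hh' => hbij.1 (Subtype.ext (hh'.trans (congrArg Subtype.val hh).symm))⟩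

include hp' htr in
/-- A regular group contains the scalar `-1`. -/
theorem two_dvd_scalars (hp5 : 5 ≤ p) (hcard : Nat.card H = p ^ 2 - 1) {Z : Subgroup H}
    (hmem : ∀ g : H, g ∈ Z ↔ ∃ c : ZMod p, ∀ v, ((g : H) : Space p 2 ≃ₗ[ZMod p] Space p 2) v = c • v) :
    2 ∣ Nat.card Z := by
  haveI := finite_group (H := H)
  haveI := Fact.mk Nat.prime_two
  have h2 : 2 ∣ Nat.card H := by
    rw [hcard, ← even_iff_two_dvd, Nat.even_sub (Nat.one_le_pow _ _ hpf.out.pos)]
    simp only [Nat.not_even_one, iff_false, Nat.not_even_iff_odd]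
    exact Odd.pow (hpf.out.odd_of_ne_two (by omega))
  obtain ⟨t, ht⟩ := exists_prime_orderOf_dvd_card' 2 h2
  have htt : t * t = 1 := by
    have h := pow_orderOf_eq_one t
    rwa [ht, pow_two] at h
  have htZ : t ∈ Z := by
    refine (hmem t).2 ⟨-1, fun v => ?_⟩
    set T := ((t : H) : Space p 2 ≃ₗ[ZMod p] Space p 2)
    have hfix : T (v + T v) = v + T v := by
      rw [map_add, ← LinearEquiv.mul_apply, ← Subgroup.coe_mul, htt, Subgroup.coe_one, LinearEquiv.coe_one, id_eq,
        add_comm]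
    have h0 : v + T v = 0 := by
      by_contra hne
      obtain ⟨h, -, huniq⟩ := regular_of_card htr hcard _ _ hne hne
      have := (huniq t hfix).trans (huniq 1 (by simp)).symm
      rw [this, orderOf_one] at ht
      omega
    rw [neg_one_smul]
    exact eq_neg_of_add_eq_zero_right h0
  have h := orderOf_dvd_natCard (⟨t, htZ⟩ : Z)
  rwa [Subgroup.orderOf_mk, ht] at h

include hp' htr in
/-- Recognition of `SL(2,5)`. -/
theorem equiv_SL_two_five (hp11 : p = 11) (hcard : Nat.card H = 120) {Z : Subgroup H}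
    (hHyp : LinearTI.Hyp Z) (hZ : Nat.card Z = 2)
    (hsmall : ∀ g : H, g ∉ Z → Z.relIndex (LinearTI.C g) ≤ 5) :
    Nonempty (H ≃* Matrix.SpecialLinearGroup (Fin 2) (ZMod 5)) := by
  classical
  subst hp11
  haveI := finite_group (H := H)
  haveI : Fintype H := Fintype.ofFinite H
  haveI : Z.Normal := ⟨fun z hz x => by
    rw [Subgroup.mem_center_iff.1 (hHyp.central hz) x, mul_inv_cancel_right]; exact hz⟩
  have hidx : Nat.card (H ⧸ Z) = 60 := by
    have := Subgroup.card_eq_card_quotient_mul_card_subgroup Z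
    rw [hcard, hZ] at this
    omega
  have h5 : ∀ R : Subgroup (H ⧸ Z), Nat.card R = 5 → ¬ R.Normal := by
    intro R hR hRn
    haveI := Fact.mk (show Nat.Prime 5 by norm_num)
    obtain ⟨r, hr⟩ := exists_prime_orderOf_dvd_card' 5 (dvd_of_eq hR.symm)
    obtain ⟨g, hg⟩ := QuotientGroup.mk'_surjective Z (r : H ⧸ Z)
    have hgZ : g ∉ Z := fun h => by
      have : (r : H ⧸ Z) = 1 := by rw [← hg]; exact (QuotientGroup.eq_one_iff g).2 h
      rw [OneMemClass.coe_eq_one] at this
      rw [this, orderOf_one] at hr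
      omega
    set P := R.comap (QuotientGroup.mk' Z) with hP
    have hPc : ∀ y ∈ P, y ∈ LinearTI.C g := by
      intro y hy
      have hcyc : R = Subgroup.zpowers (r : H ⧸ Z) := by
        refine (Subgroup.eq_of_le_of_card_ge (Subgroup.zpowers_le.2 r.2) ?_).symm
        rw [Nat.card_zpowers, Subgroup.orderOf_coe, hr, hR]
      rw [hP, Subgroup.mem_comap, hcyc] at hy
      obtain ⟨i, hi⟩ := Subgroup.mem_zpowers_iff.1 hy
      rw [← hg, ← map_zpow] at hi
      have hyz : (g ^ i)⁻¹ * y ∈ Z := QuotientGroup.eq.1 hi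
      have : y = g ^ i * ((g ^ i)⁻¹ * y) := by group
      rw [this]
      refine mul_mem (zpow_mem (LinearTI.mem_C.2 rfl) i) (hHyp.le_C g hyz)
    obtain ⟨e, he, hk2, hh, -⟩ := LinearTI.class_data hHyp hgZ
    have hone : (LinearTI.cl g).card = 1 := by
      refine Finset.card_eq_one.2 ⟨LinearTI.C g,
        Finset.eq_singleton_iff_unique_mem.2 ⟨LinearTI.self_mem_cl g, fun B hB => ?_⟩⟩
      obtain ⟨x, -, rfl⟩ := Finset.mem_image.1 hB
      refine hHyp.C_eq hgZ (hPc _ ?_) (hHyp.conj_not_mem hgZ x)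
      have hgP : g ∈ P := by rw [hP, Subgroup.mem_comap, hg]; exact r.2
      exact (hRn.comap (QuotientGroup.mk' Z)).conj_mem g hgP x
    rw [hcard, hone, hZ] at hh
    have := hsmall g hgZ
    rcases he with rfl | rfl <;> omega
  obtain ⟨eA⟩ := SL2.Dickson.Sixty.nonempty_mulEquiv_alternating_five hidx h5
  have hns : ¬ Group.IsSolvable H := fun h => by
    haveI := h
    haveI : Group.IsSolvable (alternatingGroup (Fin 5)) :=
      Group.isSolvable_of_surjective (f := (eA.toMonoidHom.comp (QuotientGroup.mk' Z)))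
        (eA.surjective.comp (QuotientGroup.mk'_surjective Z))
    have hcomm := IsSimpleGroup.comm_iff_isSolvable.2 ‹Group.IsSolvable (alternatingGroup (Fin 5))›
    exact absurd hcomm (by decide +kernel)
  have h0689 := Cfsg.Agent.S0689.result H (regular_of_card htr (by rw [hcard]; norm_num)) hns
  rw [card_space] at h0689
  rcases h0689 with ⟨-, h⟩ | ⟨h, -⟩ | ⟨h, -⟩
  · exact h
  · norm_num at h
  · norm_num at h

include htr in
theorem sq_sub_one_dvd : p ^ 2 - 1 ∣ Nat.card H := pow_sub_one_dvd (by norm_num) htr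

include hp' htr in
/-- Transitive plane groups: at least `p` classes or `SL(2,5)` on `11 ^ 2`. -/
theorem le_card_classes_two :
    p ≤ Nat.card (ConjClasses H) ∨ (p = 11 ∧ Nat.card (ConjClasses H) = 9 ∧ Nat.card H = 120 ∧
      Nonempty (H ≃* Matrix.SpecialLinearGroup (Fin 2) (ZMod 5))) := by
  classical
  haveI := finite_group (H := H)
  have hdvd := sq_sub_one_dvd htr
  have hp2 := hpf.out.two_le
  have hpp : 4 ≤ p ^ 2 := by rw [sq]; nlinarith
  have hHpos : p ^ 2 - 1 ≤ Nat.card H := Nat.le_of_dvd Nat.card_pos hdvd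
  by_cases hp5 : 5 ≤ p
  · rcases plane_data hp' hp5 with ⟨A, -, -, -, h⟩ | ⟨Z, hHyp, hsmall, hmem, hz, N, Y, hNY, hN, hY⟩
    · left
      have : 5 * p ≤ p ^ 2 := by rw [sq]; exact Nat.mul_le_mul_right p hp5
      omega
    have hz0 : 0 < Nat.card Z := Nat.card_pos
    have hzle : Nat.card Z ≤ p - 1 := Nat.le_of_dvd (by omega) hz
    have hN1 : p + 1 ∣ N := by
      obtain ⟨d, hd⟩ := hdvd
      obtain ⟨s, hs⟩ := hz
      refine ⟨d * s, Nat.eq_of_mul_eq_mul_right hz0 ?_⟩
      rw [← hN, hd, show p ^ 2 - 1 = (p + 1) * (p - 1) by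
        rw [sq, show 1 = 1 * 1 from rfl, Nat.mul_self_sub_mul_self_eq], hs]
      ring
    have hpN : ¬ p ∣ N := fun h => hp' (hN ▸ dvd_mul_of_dvd_left h _)
    have hk : 1 ≤ Nat.card Z := hz0
    have hple : p + 1 ≤ N := by
      refine Nat.le_of_dvd ?_ hN1
      rcases Nat.eq_zero_or_pos N with h | h
      · rw [h, zero_mul] at hN; exact absurd hN Nat.card_pos.ne'
      · exact h
    have hreg : p ^ 2 - 1 = N * Nat.card Z → 2 ∣ Nat.card Z := fun h =>
      two_dvd_scalars hp' htr hp5 (hN.trans h.symm) hmem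
    have hN60 : N ≤ 60 := (show ∀ a ∈ PlaneCount.shapes, a.1 ≤ 60 by decide) _ hNY
    have hprime := hpf.out
    simp only [PlaneCount.shapes, Finset.mem_insert, Finset.mem_singleton, Prod.mk.injEq] at hNY
    rcases hNY with ⟨rfl, rfl⟩ | ⟨rfl, rfl⟩ | ⟨rfl, rfl⟩ | ⟨rfl, rfl⟩ | ⟨rfl, rfl⟩ | ⟨rfl, rfl⟩ |
      ⟨rfl, rfl⟩ | ⟨rfl, rfl⟩ | ⟨rfl, rfl⟩ | ⟨rfl, rfl⟩ | ⟨rfl, rfl⟩ | ⟨rfl, rfl⟩
    all_goals
      have hp60 : p ≤ 59 := by omega
      interval_cases p <;> try omega
    all_goals try norm_num at hprime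
    all_goals try norm_num at hN1 hpN
    all_goals try (left; norm_num at hz hHpos hreg; omega)
    all_goals
      norm_num at hz hHpos
      by_cases hz2 : Nat.card Z = 2
      · exact Or.inr ⟨rfl, by omega, by omega, equiv_SL_two_five hp' htr rfl (by omega) hHyp hz2 hsmall⟩
      · left
        have hmem10 : Nat.card Z ∈ Nat.divisors 10 := Nat.mem_divisors.2 ⟨hz, by norm_num⟩
        rw [show Nat.divisors 10 = {1, 2, 5, 10} by decide] at hmem10
        simp only [Finset.mem_insert, Finset.mem_singleton] at hmem10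
        omega
  · left
    have hp23 : p = 2 ∨ p = 3 := by
      have := hpf.out
      have h4 : p ≠ 4 := by rintro rfl; norm_num at this
      omega
    haveI : Nontrivial H := Finite.one_lt_card_iff_nontrivial.1 (by omega)
    obtain ⟨x, hx⟩ := exists_ne (1 : H)
    have h2le : 2 ≤ Nat.card (ConjClasses H) :=
      Finite.one_lt_card_iff_nontrivial.2 ⟨ConjClasses.mk x, ConjClasses.mk 1,
        fun h => hx (isConj_one_right.1 (ConjClasses.mk_eq_mk_iff_isConj.1 h).symm)⟩
    rcases hp23 with rfl | rfl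
    · exact h2le
    by_contra hcon
    push Not at hcon
    have hk2 : Nat.card (ConjClasses H) = 2 := by omega
    haveI : Fintype (ConjClasses H) := Fintype.ofFinite _
    have hall : ∀ a b : H, a ≠ 1 → b ≠ 1 → ConjClasses.mk a = ConjClasses.mk b := fun a b ha hb => by
      by_contra hne
      have h3 : ({ConjClasses.mk a, ConjClasses.mk b, ConjClasses.mk 1} : Finset (ConjClasses H)).card = 3 :=
        Finset.card_eq_three.2 ⟨_, _, _, hne,
          fun h => ha (isConj_one_right.1 (ConjClasses.mk_eq_mk_iff_isConj.1 h).symm),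
          fun h => hb (isConj_one_right.1 (ConjClasses.mk_eq_mk_iff_isConj.1 h).symm), rfl⟩
      have := Finset.card_le_univ ({ConjClasses.mk a, ConjClasses.mk b, ConjClasses.mk 1} : Finset (ConjClasses H))
      rw [← Nat.card_eq_fintype_card] at this
      omega
    haveI := Fact.mk Nat.prime_two
    obtain ⟨i, hi⟩ := exists_prime_orderOf_dvd_card' 2
      ((show 2 ∣ 3 ^ 2 - 1 by norm_num).trans hdvd)
    have hsq : ∀ a : H, a * a = 1 := fun a => by
      by_cases ha : a = 1
      · rw [ha, one_mul]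
      have hord : orderOf a = 2 := by
        by_contra hne
        refine mk_ne_of_orderOf_ne (a := a) (b := i) (by rw [hi]; exact hne) (hall a i ha fun h => ?_)
        rw [h, orderOf_one] at hi
        omega
      have h := pow_orderOf_eq_one a
      rwa [hord, pow_two] at h
    have hcomm : ∀ a b : H, a * b = b * a := fun a b => by
      calc a * b = a * ((a * b) * (a * b)) * b := by rw [hsq, mul_one]
        _ = (a * a) * (b * a) * (b * b) := by group
        _ = b * a := by rw [hsq, hsq, one_mul, mul_one]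
    have hinj : Function.Injective (ConjClasses.mk : H → ConjClasses H) := fun a b h => by
      obtain ⟨c, hc⟩ := isConj_iff.1 (ConjClasses.mk_eq_mk_iff_isConj.1 h)
      rw [← hc, hcomm c a, mul_inv_cancel_right]
    have := Nat.card_le_card_of_injective _ hinj
    norm_num at hHpos
    omega

end CfsgLib.CoprimeTransitive
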