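import Cfsg.Agent.Lib.Correspondences.Constrained
import Cfsg.Agent.Lib.PSolvable.Basic
import Cfsg.Agent.Lib.CoprimeTransitive.High
import Mathlib.GroupTheory.SchurZassenhaus

/-!
# Groups with one class of non-trivial `p`-elements and trivial `p'`-core

The Sylow subgroup is elementary abelian, normal and self-centralizing, a complement is transitive on it,
and the `p`-regular classes are the classes of the complement.
-/

set_option autoImplicit false
set_option linter.unusedSectionVars false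
set_option linter.style.haveILetI false

namespace CfsgLib.CoprimeTransitive

open Cfsg

/-- The classes of `p`-regular elements. -/
abbrev RegClass (p : ℕ) (G : Type*) [Group G] :=
  {c : ConjClasses G // ∃ g : G, ConjClasses.mk g = c ∧ ¬ p ∣ orderOf g}

/-- All non-trivial `p`-elements are conjugate. -/
def OneClass (p : ℕ) (G : Type*) [Group G] : Prop :=
  ∀ x y : G, x ≠ 1 → y ≠ 1 → (∃ k : ℕ, orderOf x = p ^ k) → (∃ k : ℕ, orderOf y = p ^ k) → IsConj x y

/-- An element whose image has order dividing `s` can be replaced by one of order dividing `s`. -/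
theorem exists_lift_coprime {G Q : Type*} [Group G] [Group Q] (f : G →* Q) (g : G) {q s : ℕ}
    (hg : g ^ (q * s) = 1) (hcop : q.Coprime s) (hf : f g ^ s = 1) : ∃ h, f h = f g ∧ h ^ s = 1 := by
  have hb : (q : ℤ) * q.gcdA s + (s : ℤ) * q.gcdB s = 1 := by
    rw [← Nat.gcd_eq_gcd_ab, hcop]; rfl
  refine ⟨g ^ ((q : ℤ) * q.gcdA s), ?_, ?_⟩
  · calc f (g ^ ((q : ℤ) * q.gcdA s))
        = f g ^ ((q : ℤ) * q.gcdA s) * (f g ^ (s : ℤ)) ^ q.gcdB s := by
          rw [map_zpow, zpow_natCast, hf, one_zpow, mul_one]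
      _ = f g := by rw [← zpow_mul, ← zpow_add, hb, zpow_one]
  · rw [← zpow_natCast, ← zpow_mul, show (q : ℤ) * q.gcdA s * s = ((q * s : ℕ) : ℤ) * q.gcdA s by
      push_cast; ring, zpow_mul, zpow_natCast, hg, one_zpow]

variable {p : ℕ} [hpf : Fact p.Prime]

/-- `p`-regular elements lift. -/
theorem exists_regular_lift {G Q : Type*} [Group G] [Finite G] [Group Q] {f : G →* Q}
    (hf : Function.Surjective f) {x : Q} (hx : ¬ p ∣ orderOf x) :
    ∃ h, f h = x ∧ ¬ p ∣ orderOf h := by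
  obtain ⟨g, rfl⟩ := hf x
  obtain ⟨a, s, hs, ho⟩ := Nat.exists_eq_pow_mul_and_not_dvd (orderOf_pos g).ne' p hpf.out.ne_one
  have hdvd : orderOf (f g) ∣ s :=
    (Nat.Coprime.pow_right a (hpf.out.coprime_iff_not_dvd.2 hx).symm).dvd_of_dvd_mul_left
      (ho ▸ orderOf_map_dvd f g)
  obtain ⟨h, h1, h2⟩ := exists_lift_coprime f g (q := p ^ a) (s := s)
    (by rw [← ho, pow_orderOf_eq_one]) (Nat.Coprime.pow_left a (hpf.out.coprime_iff_not_dvd.2 hs))
    (orderOf_dvd_iff_pow_eq_one.1 hdvd)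
  exact ⟨h, h1, fun hd => hs (hd.trans (orderOf_dvd_of_pow_eq_one h2))⟩

/-- `p`-elements lift. -/
theorem exists_pElement_lift {G Q : Type*} [Group G] [Finite G] [Group Q] {f : G →* Q}
    (hf : Function.Surjective f) {x : Q} (hx : ∃ k, orderOf x = p ^ k) :
    ∃ h, f h = x ∧ ∃ k, orderOf h = p ^ k := by
  obtain ⟨g, rfl⟩ := hf x
  obtain ⟨k, hk⟩ := hx
  obtain ⟨a, s, hs, ho⟩ := Nat.exists_eq_pow_mul_and_not_dvd (orderOf_pos g).ne' p hpf.out.ne_one
  have hdvd : orderOf (f g) ∣ p ^ a := by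
    refine (Nat.Coprime.dvd_of_dvd_mul_right ?_ (ho ▸ orderOf_map_dvd f g))
    rw [hk]
    exact Nat.Coprime.pow_left k (hpf.out.coprime_iff_not_dvd.2 hs)
  obtain ⟨h, h1, h2⟩ := exists_lift_coprime f g (q := s) (s := p ^ a)
    (by rw [mul_comm, ← ho, pow_orderOf_eq_one])
    (Nat.Coprime.pow_right a (hpf.out.coprime_iff_not_dvd.2 hs).symm)
    (orderOf_dvd_iff_pow_eq_one.1 hdvd)
  obtain ⟨j, -, hj⟩ := (Nat.dvd_prime_pow hpf.out).1 (orderOf_dvd_of_pow_eq_one h2)
  exact ⟨h, h1, j, hj⟩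

/-- The map of `p`-regular classes. -/
def regMap {G Q : Type*} [Group G] [Group Q] (f : G →* Q) (c : RegClass p G) : RegClass p Q :=
  ⟨ConjClasses.map f c.1, by
    obtain ⟨g, hg, ho⟩ := c.2
    exact ⟨f g, by rw [← hg]; rfl, fun h => ho (h.trans (orderOf_map_dvd f g))⟩⟩

theorem regMap_surjective {G Q : Type*} [Group G] [Finite G] [Group Q] {f : G →* Q}
    (hf : Function.Surjective f) : Function.Surjective (regMap (p := p) f) := by
  rintro ⟨c, x, rfl, hx⟩
  obtain ⟨h, h1, h2⟩ := exists_regular_lift hf hx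
  exact ⟨⟨ConjClasses.mk h, h, rfl, h2⟩, Subtype.ext (congrArg ConjClasses.mk h1)⟩

theorem oneClass_map {G Q : Type*} [Group G] [Finite G] [Group Q] {f : G →* Q}
    (hf : Function.Surjective f) (hG : OneClass p G) : OneClass p Q := by
  intro x y hx hy hxp hyp
  obtain ⟨x', rfl, hx'⟩ := exists_pElement_lift hf hxp
  obtain ⟨y', rfl, hy'⟩ := exists_pElement_lift hf hyp
  exact MonoidHom.map_isConj f (hG x' y' (fun h => hx (h ▸ map_one f)) (fun h => hy (h ▸ map_one f)) hx' hy')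

variable {Q : Type*} [Group Q] [Finite Q]

/-- The data of a group with one class of `p`-elements and trivial `p'`-core. -/
structure Split (p : ℕ) (V H : Subgroup Q) : Prop where
  normal : V.Normal
  compl : Subgroup.IsComplement' V H
  pgroup : IsPGroup p V
  comm : ∀ a ∈ V, ∀ b ∈ V, a * b = b * a
  exponent : ∀ v ∈ V, v ^ p = 1
  coprime : ¬ p ∣ Nat.card H
  self_centralizing : ∀ x : Q, (∀ v ∈ V, x * v = v * x) → x ∈ V
  trans : ∀ v ∈ V, ∀ w ∈ V, v ≠ 1 → w ≠ 1 → ∃ h ∈ H, h * v * h⁻¹ = w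
  ne_bot : V ≠ ⊥

theorem exists_split (hsolv : IsPSolvable p Q) (hbot : pPrimeCore p Q = ⊥) (hdiv : p ∣ Nat.card Q)
    (h1 : OneClass p Q) : ∃ V H : Subgroup Q, Split p V H := by
  set V := pCore p Q with hV
  haveI hn : V.Normal := inferInstance
  have hVp : IsPGroup p V := CfsgLib.Cores.isPGroup_pCore p Q
  have hHH := CfsgLib.Correspondences.centralizer_pCore_le hsolv hbot
  have hVne : V ≠ ⊥ := by
    intro h
    rw [← hV, h] at hHH
    have htop : (⊤ : Subgroup Q) ≤ ⊥ := fun x _ => hHH (by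
      rw [Subgroup.mem_centralizer_iff]
      intro y hy
      rw [Subgroup.coe_bot, Set.mem_singleton_iff] at hy
      rw [hy, one_mul, mul_one])
    have hcard := Subgroup.card_le_of_le htop
    rw [Subgroup.card_top, Subgroup.card_bot] at hcard
    have := Nat.le_of_dvd Nat.card_pos hdiv
    have := hpf.out.two_le
    omega
  have hpel : ∀ v ∈ V, ∃ k, orderOf v = p ^ k := fun v hv => by
    obtain ⟨k, hk⟩ := IsPGroup.iff_orderOf.1 hVp ⟨v, hv⟩
    exact ⟨k, by rwa [Subgroup.orderOf_mk] at hk⟩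
  obtain ⟨v₀, hv₀, hv₀1⟩ := (Subgroup.bot_or_exists_ne_one V).resolve_left hVne
  have hall : ∀ x : Q, (∃ k, orderOf x = p ^ k) → x ∈ V := by
    intro x hx
    by_cases hx1 : x = 1
    · rw [hx1]; exact V.one_mem
    obtain ⟨c, hc⟩ := isConj_iff.1 (h1 v₀ x hv₀1 hx1 (hpel v₀ hv₀) hx)
    rw [← hc]
    exact hn.conj_mem v₀ hv₀ c
  obtain ⟨P⟩ : Nonempty (Sylow p Q) := inferInstance
  have hPV : (P : Subgroup Q) ≤ V := fun x hx => hall x (by
    obtain ⟨k, hk⟩ := IsPGroup.iff_orderOf.1 P.isPGroup' ⟨x, hx⟩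
    exact ⟨k, by rwa [Subgroup.orderOf_mk] at hk⟩)
  have hPeq : V = (P : Subgroup Q) := P.3 hVp hPV
  have hidx : ¬ p ∣ V.index := hPeq ▸ P.not_dvd_index
  haveI : Nontrivial V := ⟨⟨⟨v₀, hv₀⟩, 1, fun h => hv₀1 (congrArg Subtype.val h)⟩⟩
  haveI := hVp.center_nontrivial
  obtain ⟨z, hz⟩ := exists_ne (1 : Subgroup.center V)
  have hz1 : ((z : V) : Q) ≠ 1 := fun h => hz (Subtype.ext (Subtype.ext h))
  have hcomm : ∀ a ∈ V, ∀ b ∈ V, a * b = b * a := by
    intro a ha b hb
    by_cases ha1 : a = 1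
    · rw [ha1, one_mul, mul_one]
    obtain ⟨c, hc⟩ := isConj_iff.1 (h1 _ a hz1 ha1 (hpel _ (z : V).2) (hpel a ha))
    have hb' : c⁻¹ * b * c ∈ V := by simpa using hn.conj_mem b hb c⁻¹
    have h2 := congrArg Subtype.val (Subgroup.mem_center_iff.1 z.2 ⟨_, hb'⟩)
    simp only [Subgroup.coe_mul] at h2
    rw [← hc]
    calc c * ((z : V) : Q) * c⁻¹ * b = c * (((z : V) : Q) * (c⁻¹ * b * c)) * c⁻¹ := by group
      _ = c * (c⁻¹ * b * c * ((z : V) : Q)) * c⁻¹ := by rw [h2]
      _ = b * (c * ((z : V) : Q) * c⁻¹) := by group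
  have hexp : ∀ v ∈ V, v ^ p = 1 := by
    intro v hv
    by_cases hv1 : v = 1
    · rw [hv1, one_pow]
    obtain ⟨u, hu⟩ := exists_prime_orderOf_dvd_card' p hdiv
    have hu1 : u ≠ 1 := fun h => by rw [h, orderOf_one] at hu; exact hpf.out.ne_one hu.symm
    obtain ⟨c, hc⟩ := isConj_iff.1 (h1 u v hu1 hv1 ⟨1, by rw [hu, pow_one]⟩ (hpel v hv))
    rw [← hc, conj_pow, ← hu, pow_orderOf_eq_one]
    group
  have hcop : (Nat.card V).Coprime V.index := by
    obtain ⟨a, ha⟩ := IsPGroup.iff_card.1 hVp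
    rw [ha]
    exact Nat.Coprime.pow_left a (hpf.out.coprime_iff_not_dvd.2 hidx)
  obtain ⟨H, hH⟩ := Subgroup.exists_right_complement'_of_coprime hcop
  refine ⟨V, H, hn, hH, hVp, hcomm, hexp, ?_, ?_, ?_, hVne⟩
  · rwa [← hH.symm.index_eq_card]
  · exact fun x hx => hHH (Subgroup.mem_centralizer_iff.2 fun v hv => (hx v hv).symm)
  · intro v hv w hw hv1 hw1
    obtain ⟨c, hc⟩ := isConj_iff.1 (h1 v w hv1 hw1 (hpel v hv) (hpel w hw))
    obtain ⟨⟨⟨u, hu⟩, ⟨h, hh⟩⟩, huh⟩ := hH.2 c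
    change u * h = c at huh
    refine ⟨h, hh, ?_⟩
    rw [← hc, ← huh]
    have hin : h * v * h⁻¹ ∈ V := hn.conj_mem v hv h
    calc h * v * h⁻¹ = u * (h * v * h⁻¹) * u⁻¹ := by
          rw [hcomm u hu _ hin, mul_inv_cancel_right]
      _ = u * h * v * (u * h)⁻¹ := by group

namespace Split

variable {V H : Subgroup Q}

theorem inf_eq_bot (S : Split p V H) : V ⊓ H = ⊥ := S.compl.disjoint.eq_bot

theorem eq_one (S : Split p V H) {x : Q} (h1 : x ∈ V) (h2 : x ∈ H) : x = 1 :=
  Subgroup.mem_bot.1 (S.inf_eq_bot ▸ Subgroup.mem_inf.2 ⟨h1, h2⟩)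

theorem exists_mul (S : Split p V H) (g : Q) : ∃ u ∈ V, ∃ h ∈ H, u * h = g := by
  obtain ⟨⟨u, h⟩, huh⟩ := S.compl.2 g
  exact ⟨u, u.2, h, h.2, huh⟩

theorem not_dvd_orderOf (S : Split p V H) {h : Q} (hh : h ∈ H) : ¬ p ∣ orderOf h := fun hd =>
  S.coprime (hd.trans (by
    rw [← Subgroup.orderOf_mk h hh]; exact orderOf_dvd_natCard _))

/-- Every `p`-regular element is conjugate into the complement. -/
theorem exists_conj_mem (S : Split p V H) {g : Q} (hg : ¬ p ∣ orderOf g) : ∃ h ∈ H, IsConj h g := by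
  haveI := S.normal
  letI : CommGroup V :=
    { (inferInstance : Group V) with mul_comm := fun a b => Subtype.ext (S.comm a a.2 b b.2) }
  obtain ⟨u, hu, h, hh, rfl⟩ := S.exists_mul g
  set m := orderOf (u * h) with hm
  have hcV : ∀ i : ℕ, (u * h) ^ i * (h ^ i)⁻¹ ∈ V := by
    intro i
    induction i with
    | zero => simp
    | succ i ih =>
      rw [pow_succ', pow_succ']
      have := V.mul_mem hu (S.normal.conj_mem _ ih h)
      convert this using 1
      group
  let φ : V →* V := (MulAut.conjNormal (H := V) h).toMonoidHom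
  let c : ℕ → V := fun i => ⟨_, hcV i⟩
  have hc : ∀ i, c (i + 1) = ⟨u, hu⟩ * φ (c i) := fun i => Subtype.ext (by
    simp only [c, φ, Subgroup.coe_mul, MulEquiv.coe_toMonoidHom, MulAut.conjNormal_apply]
    rw [pow_succ', pow_succ']
    group)
  have hhm : h ^ m = 1 := by
    refine S.eq_one ?_ (pow_mem hh m)
    have := hcV m
    rwa [hm, pow_orderOf_eq_one, one_mul, inv_mem_iff, ← hm] at this
  have hcm : c m = 1 := Subtype.ext (by simp [c, hm, pow_orderOf_eq_one] at hhm ⊢; exact hhm)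
  have hc0 : c 0 = 1 := Subtype.ext (by simp [c])
  set W := ∏ i ∈ Finset.range m, c i with hW
  have hWeq : (⟨u, hu⟩ : V) ^ m * φ W = W := by
    have h1 : ∏ i ∈ Finset.range m, c (i + 1) = (⟨u, hu⟩ : V) ^ m * φ W := by
      rw [Finset.prod_congr rfl fun i _ => hc i, Finset.prod_mul_distrib, Finset.prod_const,
        Finset.card_range, map_prod]
    rw [← h1]
    have h2 := Finset.prod_range_succ' c m
    rw [Finset.prod_range_succ, hcm, hc0, mul_one, mul_one] at h2
    exact h2.symm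
  obtain ⟨t, ht⟩ : ∃ t : ℕ, ((⟨u, hu⟩ : V) ^ m) ^ t = ⟨u, hu⟩ :=
    exists_pow_eq_self_of_coprime (by
      have ho : orderOf (⟨u, hu⟩ : V) ∣ p := orderOf_dvd_of_pow_eq_one (Subtype.ext (S.exponent u hu))
      exact (Nat.Coprime.coprime_dvd_right ho (hpf.out.coprime_iff_not_dvd.2 hg).symm))
  refine ⟨h, hh, isConj_iff.2 ⟨((W ^ t : V) : Q), ?_⟩⟩
  have hv : (⟨u, hu⟩ : V) * φ (W ^ t) = W ^ t := by
    have := congrArg (fun x => x ^ t) hWeq
    simp only [mul_pow, ht, ← map_pow] at this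
    exact this
  have hv' : u * (h * ((W ^ t : V) : Q) * h⁻¹) = ((W ^ t : V) : Q) := by
    have := congrArg Subtype.val hv
    simpa [φ] using this
  conv_lhs => rw [← hv']
  rw [show u * (h * ((W ^ t : V) : Q) * h⁻¹) * h * (u * (h * ((W ^ t : V) : Q) * h⁻¹))⁻¹ =
    u * h * ((W ^ t : V) : Q) * h⁻¹ * h * h * ((W ^ t : V) : Q)⁻¹ * h⁻¹ * u⁻¹ by group]
  have hW' : ((W ^ t : V) : Q) * h = u * h * ((W ^ t : V) : Q) := by
    conv_lhs => rw [← hv']
    group
  calc u * h * ((W ^ t : V) : Q) * h⁻¹ * h * h * ((W ^ t : V) : Q)⁻¹ * h⁻¹ * u⁻¹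
      = u * h * (((W ^ t : V) : Q) * h) * ((W ^ t : V) : Q)⁻¹ * h⁻¹ * u⁻¹ := by group
    _ = u * h * (u * h * ((W ^ t : V) : Q)) * ((W ^ t : V) : Q)⁻¹ * h⁻¹ * u⁻¹ := by rw [hW']
    _ = u * h := by group

/-- Conjugate elements of the complement are conjugate in it. -/
theorem isConj_subgroup (S : Split p V H) {a b : H} (h : IsConj (a : Q) (b : Q)) : IsConj a b := by
  obtain ⟨g, hg⟩ := isConj_iff.1 h
  obtain ⟨u, hu, η, hη, rfl⟩ := S.exists_mul g
  have h3 : η * (a : Q) * η⁻¹ ∈ H := mul_mem (mul_mem hη a.2) (inv_mem hη)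
  have hV : (b : Q) * (η * (a : Q) * η⁻¹)⁻¹ ∈ V := by
    have := S.normal.conj_mem _ (inv_mem hu) (η * (a : Q) * η⁻¹)
    have hmem := mul_mem hu this
    rw [← hg]
    convert hmem using 1
    group
  have := S.eq_one hV (mul_mem b.2 (inv_mem h3))
  refine isConj_iff.2 ⟨⟨η, hη⟩, Subtype.ext ?_⟩
  rw [mul_inv_eq_one] at this
  simpa using this.symm

/-- The `p`-regular classes are the classes of the complement. -/
theorem card_regClass (S : Split p V H) : Nat.card (RegClass p Q) = Nat.card (ConjClasses H) := by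
  symm
  refine Nat.card_eq_of_bijective (fun c : ConjClasses H =>
    (⟨ConjClasses.map H.subtype c, by
      obtain ⟨a, rfl⟩ := ConjClasses.mk_surjective c
      exact ⟨a, rfl, S.not_dvd_orderOf a.2⟩⟩ : RegClass p Q)) ⟨?_, ?_⟩
  · intro c d hcd
    obtain ⟨a, rfl⟩ := ConjClasses.mk_surjective c
    obtain ⟨b, rfl⟩ := ConjClasses.mk_surjective d
    exact ConjClasses.mk_eq_mk_iff_isConj.2
      (S.isConj_subgroup (ConjClasses.mk_eq_mk_iff_isConj.1 (congrArg Subtype.val hcd)))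
  · rintro ⟨c, g, rfl, hg⟩
    obtain ⟨h, hh, hc⟩ := S.exists_conj_mem hg
    exact ⟨ConjClasses.mk ⟨h, hh⟩, Subtype.ext (ConjClasses.mk_eq_mk_iff_isConj.2 hc)⟩

/-- The complement as a transitive linear group. -/
theorem exists_linear (S : Split p V H) : ∃ (n : ℕ) (L : Subgroup (Space p n ≃ₗ[ZMod p] Space p n)),
    0 < n ∧ Nat.card V = p ^ n ∧ ¬ p ∣ Nat.card L ∧
    (∀ v w : Space p n, v ≠ 0 → w ≠ 0 → ∃ h : L, (h : Space p n ≃ₗ[ZMod p] Space p n) v = w) ∧
    Nonempty (H ≃* L) := by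
  classical
  haveI := S.normal
  letI : CommGroup V :=
    { (inferInstance : Group V) with mul_comm := fun a b => Subtype.ext (S.comm a a.2 b b.2) }
  have htor : ∀ x : Additive V, p • x = 0 := fun x => by
    apply Additive.toMul.injective
    rw [toMul_nsmul, toMul_zero]
    exact Subtype.ext (S.exponent _ (Additive.toMul x).2)
  obtain ⟨_instM⟩ : Nonempty (Module (ZMod p) (Additive V)) := ⟨AddCommGroup.zmodModule htor⟩
  haveI : Finite (Additive V) := Finite.of_equiv V Additive.ofMul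
  haveI : Module.Finite (ZMod p) (Additive V) := Module.Finite.of_finite
  set n := Module.finrank (ZMod p) (Additive V) with hn
  obtain ⟨e⟩ : Nonempty (Additive V ≃ₗ[ZMod p] Space p n) :=
    FiniteDimensional.nonempty_linearEquiv_of_finrank_eq
      (by simp [hn])
  have hcard : Nat.card V = p ^ n := by
    rw [← card_space (p := p) (n := n), ← Nat.card_congr e.toEquiv]
    exact Nat.card_congr Additive.ofMul
  let A : H → (Space p n ≃ₗ[ZMod p] Space p n) := fun h =>
    let φ : Additive V ≃+ Additive V := MulEquiv.toAdditive (MulAut.conjNormal (H := V) (h : Q))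
    e.symm ≪≫ₗ φ.toLinearEquiv (fun c x => ZMod.map_smul φ.toAddMonoidHom c x) ≪≫ₗ e
  let ρ : H →* (Space p n ≃ₗ[ZMod p] Space p n) :=
    { toFun := A
      map_one' := by
        apply LinearEquiv.ext
        intro x
        simp [A]
      map_mul' := fun a b => by
        apply LinearEquiv.ext
        intro x
        simp [A, LinearEquiv.mul_apply]
        rfl }
  have hρ : ∀ (h : H) (v : V), ρ h (e (Additive.ofMul v)) =
      e (Additive.ofMul (MulAut.conjNormal (h : Q) v)) := fun h v => by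
    simp [ρ, A]
    rfl
  have hinj : Function.Injective ρ := by
    rw [injective_iff_map_eq_one]
    intro h hh
    refine Subtype.ext (S.eq_one (S.self_centralizing _ fun v hv => ?_) h.2)
    have h1 := hρ h ⟨v, hv⟩
    rw [hh, LinearEquiv.coe_one, id_eq] at h1
    have h2 := congrArg Subtype.val (Additive.ofMul.injective (e.injective h1))
    rw [MulAut.conjNormal_apply] at h2
    change v = (h : Q) * v * (h : Q)⁻¹ at h2
    conv_rhs => rw [h2]
    group
  refine ⟨n, ρ.range, ?_, hcard, ?_, ?_, ⟨MonoidHom.ofInjective hinj⟩⟩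
  · rcases Nat.eq_zero_or_pos n with h | h
    · rw [h, pow_zero] at hcard
      exact absurd (Subgroup.eq_bot_of_card_eq V hcard) S.ne_bot
    · exact h
  · rw [Nat.card_congr (MonoidHom.ofInjective hinj).symm.toEquiv]
    exact S.coprime
  · intro v w hv hw
    set a := Additive.toMul (e.symm v)
    set b := Additive.toMul (e.symm w)
    have ha : (a : Q) ≠ 1 := fun h => hv (by
      have : a = 1 := Subtype.ext h
      have h2 := congrArg (fun x => e (Additive.ofMul x)) this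
      simpa [a] using h2)
    have hb : (b : Q) ≠ 1 := fun h => hw (by
      have : b = 1 := Subtype.ext h
      have h2 := congrArg (fun x => e (Additive.ofMul x)) this
      simpa [b] using h2)
    obtain ⟨h, hh, hc⟩ := S.trans a a.2 b b.2 ha hb
    refine ⟨⟨ρ ⟨h, hh⟩, ⟨h, hh⟩, rfl⟩, ?_⟩
    have h1 := hρ ⟨h, hh⟩ a
    have h2 : MulAut.conjNormal (H := V) h a = b := Subtype.ext (by rw [MulAut.conjNormal_apply]; exact hc)
    simp only [h2] at h1
    simpa [a, b] using h1

end Split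

theorem card_conjClasses_equiv {A B : Type*} [Group A] [Group B] (e : A ≃* B) :
    Nat.card (ConjClasses A) = Nat.card (ConjClasses B) :=
  Nat.card_eq_of_bijective (ConjClasses.map e.toMonoidHom) ⟨fun c d h => by
    obtain ⟨a, rfl⟩ := ConjClasses.mk_surjective c
    obtain ⟨b, rfl⟩ := ConjClasses.mk_surjective d
    have h' := MonoidHom.map_isConj e.symm.toMonoidHom (ConjClasses.mk_eq_mk_iff_isConj.1 h)
    simp only [MulEquiv.coe_toMonoidHom, MulEquiv.symm_apply_apply] at h'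
    exact ConjClasses.mk_eq_mk_iff_isConj.2 h', ConjClasses.map_surjective e.surjective⟩

end CfsgLib.CoprimeTransitive
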